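import Mathlib
import Cfsg.Agent.Lib.PGroupCounting.Kulakoff
import Cfsg.Agent.Lib.TwoGroups.NormalCyclic
import Cfsg.Agent.Lib.PGroups.MaximalClass
import Cfsg.Agent.Lib.CoprimeAction.Abelian

/-!
# Kulakoff's theorem for `p = 2`

In a 2-group which is neither cyclic nor of maximal class the number of subgroups of each proper
nontrivial order is `3` mod `4`.  The count of subgroups of order two is the Alperin-Feit-Thompson
involution count; the other orders follow from the enumeration principle.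
-/

set_option autoImplicit false
set_option linter.style.haveILetI false

open scoped Classical commutatorElement IsMulCommutative

namespace CfsgLib.PGroupCounting

universe u

/-- A set invariant under right multiplication by a subgroup has cardinality divisible by its order. -/
theorem card_dvd_ncard_of_mul_mem {G : Type*} [Group G] (K : Subgroup G) (S : Set G)
    (h : ∀ g ∈ S, ∀ k ∈ K, g * k ∈ S) : Nat.card K ∣ S.ncard := by
  refine ⟨Nat.card ↥((QuotientGroup.mk : G → G ⧸ K) '' S), ?_⟩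
  have e : (QuotientGroup.mk : G → G ⧸ K) ⁻¹' ((QuotientGroup.mk : G → G ⧸ K) '' S) = S := by
    refine Set.Subset.antisymm ?_ (Set.subset_preimage_image _ S)
    rintro g ⟨s, hs, hsg⟩
    have := h s hs _ (QuotientGroup.eq.1 hsg)
    simpa using this
  have h2 := Nat.card_congr (QuotientGroup.preimageMkEquivSubgroupProdSet K
    ((QuotientGroup.mk : G → G ⧸ K) '' S))
  rw [e, Nat.card_prod, Nat.card_coe_set_eq] at h2
  exact h2

/-- The number of solutions of `g * g = 1`. -/
noncomputable def sqCount (P : Type*) [Group P] : ℕ := {g : P | g * g = 1}.ncard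

/-- The number of subgroups of order `2 ^ k`. -/
noncomputable def subCount (P : Type*) [Group P] (k : ℕ) : ℕ :=
  Nat.card {H : Subgroup P // Nat.card H = 2 ^ k}

/-- The number of cyclic subgroups of index two. -/
noncomputable def cycMaxCount (P : Type*) [Group P] : ℕ :=
  Nat.card {M : Subgroup P // M.index = 2 ∧ IsCyclic M}

theorem sqCount_eq (P : Type u) [Group P] [Finite P] : sqCount P = subCount P 1 + 1 := by
  have e : {g : P // orderOf g = 2} ≃ {H : Subgroup P // Nat.card H = 2 ^ 1} := by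
    refine Equiv.ofBijective (fun g => ⟨Subgroup.zpowers g.1, by rw [Nat.card_zpowers, g.2, pow_one]⟩) ⟨?_, ?_⟩
    · rintro ⟨g, hg⟩ ⟨g', hg'⟩ h
      have hsub : Subgroup.zpowers g = Subgroup.zpowers g' := congrArg Subtype.val h
      have hm : g' ∈ Subgroup.zpowers g := hsub ▸ Subgroup.mem_zpowers g'
      obtain ⟨i, rfl⟩ := Subgroup.mem_zpowers_iff.1 hm
      refine Subtype.ext ?_
      show g = g ^ i
      rw [← zpow_mod_orderOf, hg]
      rcases Int.emod_two_eq_zero_or_one i with hi | hi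
      · exfalso
        rw [← zpow_mod_orderOf, hg] at hg'
        norm_num [hi] at hg'
      · norm_num [hi]
    · rintro ⟨H, hH⟩
      haveI : Fact (Nat.Prime 2) := ⟨Nat.prime_two⟩
      obtain ⟨⟨g, hgH⟩, hg⟩ := exists_prime_orderOf_dvd_card' (G := H) 2 (by rw [hH]; rfl)
      rw [Subgroup.orderOf_mk] at hg
      exact ⟨⟨g, hg⟩, Subtype.ext (Subgroup.eq_of_le_of_card_ge (Subgroup.zpowers_le.2 hgH)
        (by rw [hH, Nat.card_zpowers, hg, pow_one]))⟩
  have hset : {g : P | g * g = 1} = insert 1 {g : P | orderOf g = 2} := by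
    ext g
    simp only [Set.mem_ofPred_eq, Set.mem_insert_iff]
    constructor
    · intro h
      rcases eq_or_ne g 1 with rfl | hg
      · exact Or.inl rfl
      · haveI : Fact (Nat.Prime 2) := ⟨Nat.prime_two⟩
        exact Or.inr (orderOf_eq_prime (by rw [pow_two, h]) hg)
    · rintro (rfl | h)
      · exact one_mul 1
      · rw [← pow_two, ← h, pow_orderOf_eq_one]
  rw [sqCount, hset, Set.ncard_insert_of_notMem (by simp) (Set.toFinite _), subCount,
    ← Nat.card_congr e, ← Nat.card_coe_set_eq]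
  rfl

/-- **Alperin–Feit–Thompson count.** A 2-group with a normal four subgroup which is not its own
centralizer has a number of solutions of `g * g = 1` divisible by four. -/
theorem four_dvd_sqCount {P : Type u} [Group P] [Finite P] (hP : IsPGroup 2 P) (E : Subgroup P)
    [hEn : E.Normal] (hE4 : Nat.card E = 4) (hE2 : ∀ e ∈ E, e * e = 1)
    (hC : Subgroup.centralizer (E : Set P) ≠ E) : 4 ∣ sqCount P := by
  haveI : Fact (Nat.Prime 2) := ⟨Nat.prime_two⟩
  set C := Subgroup.centralizer (E : Set P) with hCdef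
  haveI hCn : C.Normal := inferInstance
  have hcE : ∀ g ∈ C, ∀ e ∈ E, e * g = g * e := fun g hg e he =>
    Subgroup.mem_centralizer_iff.1 hg e he
  have hEc : ∀ a ∈ E, ∀ b ∈ E, a * b = b * a := by
    intro a ha b hb
    calc a * b = (a * b)⁻¹ := (inv_eq_of_mul_eq_one_right (hE2 _ (mul_mem ha hb))).symm
      _ = b⁻¹ * a⁻¹ := mul_inv_rev a b
      _ = b * a := by rw [inv_eq_of_mul_eq_one_right (hE2 a ha), inv_eq_of_mul_eq_one_right (hE2 b hb)]
  have hEC : E ≤ C := fun g hg => Subgroup.mem_centralizer_iff.2 fun e he => hEc e he g hg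
  -- the solutions inside the centralizer
  have hin : 4 ∣ {g : P | g ∈ C ∧ g * g = 1}.ncard := by
    rw [← hE4]
    refine card_dvd_ncard_of_mul_mem E _ fun g hg e he => ⟨C.mul_mem hg.1 (hEC he), ?_⟩
    rw [mul_assoc, ← mul_assoc e, hcE g hg.1 e he, mul_assoc g e, hE2 e he, mul_one, hg.2]
  have hsplit : sqCount P =
      {g : P | g ∈ C ∧ g * g = 1}.ncard + {g : P | g ∉ C ∧ g * g = 1}.ncard := by
    rw [← Set.ncard_union_eq ?_ (Set.toFinite _) (Set.toFinite _)]
    · refine congrArg Set.ncard (Set.ext fun g => ?_)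
      simp only [Set.mem_union, Set.mem_ofPred_eq]
      tauto
    · rw [Set.disjoint_left]
      exact fun g h1 h2 => h2.1 h1.1
  rw [hsplit]
  refine Nat.dvd_add hin ?_
  by_cases hCtop : C = ⊤
  · rw [show {g : P | g ∉ C ∧ g * g = 1} = ∅ from Set.eq_empty_iff_forall_notMem.2
      fun g hg => hg.1 (hCtop ▸ Subgroup.mem_top g), Set.ncard_empty]
    exact dvd_zero 4
  have hEbot : E ≠ ⊥ := fun h => by rw [h, Subgroup.card_bot] at hE4; omega
  obtain ⟨z, hzE, hz1, hzc⟩ := CfsgLib.TwoGroups.exists_mem_center_of_normal hP hEbot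
  have hzc' : ∀ g, g * z = z * g := Subgroup.mem_center_iff.1 hzc
  obtain ⟨e, heE, hez⟩ : ∃ e ∈ E, e ∉ Subgroup.zpowers z := by
    by_contra h
    push Not at h
    have h1 := Subgroup.card_le_of_le (show E ≤ Subgroup.zpowers z from h)
    have h2 : orderOf z = 2 := orderOf_eq_prime (by rw [pow_two, hE2 z hzE]) hz1
    rw [hE4, Nat.card_zpowers, h2] at h1
    omega
  have he1 : e ≠ 1 := fun h => hez (h ▸ one_mem _)
  have he_z : e ≠ z := fun h => hez (h ▸ Subgroup.mem_zpowers z)
  have hzz := hE2 z hzE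
  have hee := hE2 e heE
  have hlist : ∀ f ∈ E, f = 1 ∨ f = z ∨ f = e ∨ f = e * z := by
    intro f hf
    have hsub : ({1, z, e, e * z} : Finset P) ⊆ (E : Set P).toFinite.toFinset := by
      intro v hv
      rw [Set.Finite.mem_toFinset, SetLike.mem_coe]
      simp only [Finset.mem_insert, Finset.mem_singleton] at hv
      rcases hv with rfl | rfl | rfl | rfl
      · exact one_mem _
      · exact hzE
      · exact heE
      · exact mul_mem heE hzE
    have hez1 : e * z ≠ 1 := fun h => he_z (by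
      rw [eq_inv_of_mul_eq_one_left h, inv_eq_of_mul_eq_one_right hzz])
    have hez2 : e * z ≠ z := fun h => he1 (mul_eq_right.1 h)
    have h4 : ({1, z, e, e * z} : Finset P).card = 4 := by
      rw [Finset.card_insert_of_notMem, Finset.card_insert_of_notMem,
        Finset.card_pair (fun h => hz1 (mul_eq_left.1 h.symm))]
      · simp only [Finset.mem_insert, Finset.mem_singleton, not_or]
        exact ⟨he_z.symm, hez2.symm⟩
      · simp only [Finset.mem_insert, Finset.mem_singleton, not_or]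
        exact ⟨hz1.symm, he1.symm, hez1.symm⟩
    have heq := Finset.eq_of_subset_of_card_le hsub (by
      rw [h4, ← Set.ncard_eq_toFinset_card _, ← Nat.card_coe_set_eq]
      exact le_of_eq hE4)
    have hm : f ∈ ({1, z, e, e * z} : Finset P) := by rw [heq, Set.Finite.mem_toFinset]; exact hf
    simpa using hm
  have hconjE : ∀ g, ∀ f ∈ E, g⁻¹ * f * g ∈ E := fun g f hf => by
    have := hEn.conj_mem f hf g⁻¹
    rwa [inv_inv] at this
  -- elements outside `C` move `e` to `e * z`
  have hmove : ∀ g ∉ C, g⁻¹ * e * g = e * z := by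
    intro g hg
    have hzg : g⁻¹ * z * g = z := by rw [mul_assoc, ← hzc', ← mul_assoc, inv_mul_cancel, one_mul]
    rcases hlist _ (hconjE g e heE) with h | h | h | h
    · exact absurd (by simpa [mul_assoc] using congrArg (fun v => g * v * g⁻¹) h) he1
    · have h' := h.trans hzg.symm
      exact absurd (mul_left_cancel (mul_right_cancel h')) he_z
    · refine absurd (Subgroup.mem_centralizer_iff.2 fun f hf => ?_) hg
      have heg : e * g = g * e := by
        have h' := congrArg (fun v => g * v) h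
        simpa [mul_assoc] using h'
      rcases hlist f hf with rfl | rfl | rfl | rfl
      · rw [one_mul, mul_one]
      · exact (hzc' g).symm
      · exact heg
      · rw [mul_assoc, ← hzc', ← mul_assoc, heg, mul_assoc]
    · exact h
  have hfixed : ∀ g ∉ C, ∀ f ∈ E, g⁻¹ * f * g = f → f = 1 ∨ f = z := by
    intro g hg f hf hfix
    rcases hlist f hf with h | h | h | h
    · exact Or.inl h
    · exact Or.inr h
    · subst h
      exact absurd (mul_eq_left.1 ((hmove g hg).symm.trans hfix)) hz1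
    · subst h
      have h' : g⁻¹ * (e * z) * g = g⁻¹ * e * g * z := by
        rw [mul_assoc, mul_assoc, ← hzc', ← mul_assoc, ← mul_assoc]
      rw [h', hmove g hg] at hfix
      exact absurd (mul_eq_left.1 (mul_right_cancel hfix)) hz1
  set X : Set P := {g | g ∉ C ∧ (g * g = 1 ∨ g * g = z)} with hX
  -- `X` is invariant under the elements central modulo `E`
  have hinv : ∀ w ∈ C, w * w ∈ E → (∀ g, g⁻¹ * w * g * w⁻¹ ∈ E) → ∀ g ∈ X, g * w ∈ X := by
    intro w hwC hw2 hwc g hg
    obtain ⟨hgC, hg2⟩ := hg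
    refine ⟨fun h => hgC (by simpa using C.mul_mem h (C.inv_mem hwC)), ?_⟩
    set f := g⁻¹ * w * g * w⁻¹ with hf
    have hgw : g⁻¹ * w * g = f * w := by rw [hf]; group
    have hfE : f ∈ E := hwc g
    have hggc : ∀ a, g * g * a = a * (g * g) := by
      intro a
      rcases hg2 with h | h
      · rw [h, one_mul, mul_one]
      · rw [h]; exact (hzc' a).symm
    have hw2fix : g⁻¹ * (w * w) * g = w * w := by
      calc g⁻¹ * (w * w) * g = (g⁻¹ * w * g) * (g⁻¹ * w * g) := by group
        _ = f * (w * f) * w := by rw [hgw]; group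
        _ = f * (f * w) * w := by rw [← hcE w hwC f hfE]
        _ = (f * f) * (w * w) := by group
        _ = w * w := by rw [hE2 f hfE, one_mul]
    have hffix : g⁻¹ * f * g = f := by
      have h1 : (g⁻¹ * f * g) * f * w = w := by
        calc (g⁻¹ * f * g) * f * w = g⁻¹ * f * g * (g⁻¹ * w * g) := by rw [hgw]; group
          _ = g⁻¹ * (f * w) * g := by group
          _ = (g * g)⁻¹ * (w * (g * g)) := by rw [← hgw]; group
          _ = (g * g)⁻¹ * ((g * g) * w) := by rw [hggc]
          _ = w := inv_mul_cancel_left _ _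
      have h2 : g⁻¹ * f * g * f = 1 := mul_eq_right.1 h1
      rw [eq_inv_of_mul_eq_one_left h2, inv_eq_of_mul_eq_one_right (hE2 f hfE)]
    have e1 : g * w * (g * w) = g * g * f * (w * w) := by
      calc g * w * (g * w) = g * g * (g⁻¹ * w * g) * w := by group
        _ = g * g * f * (w * w) := by rw [hgw]; group
    rw [e1]
    rcases hg2 with h1 | h1 <;> rcases hfixed g hgC f hfE hffix with h2 | h2 <;>
      rcases hfixed g hgC _ hw2 hw2fix with h3 | h3 <;>
      simp [h1, h2, h3, hzz]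
  -- an element of order eight over `E`
  obtain ⟨w, hwC, hwE, hw2, hwc⟩ :
      ∃ w ∈ C, w ∉ E ∧ w * w ∈ E ∧ ∀ g, g⁻¹ * w * g * w⁻¹ ∈ E := by
    let π := QuotientGroup.mk' E
    haveI : (C.map π).Normal := hCn.map π (QuotientGroup.mk'_surjective E)
    have hne : C.map π ≠ ⊥ := by
      rw [Ne, Subgroup.map_eq_bot_iff, QuotientGroup.ker_mk']
      exact fun h => hC (le_antisymm h hEC)
    obtain ⟨q, hq, hq1, hqc⟩ :=
      CfsgLib.TwoGroups.exists_mem_center_of_normal (hP.to_quotient E) hne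
    set D := C.map π ⊓ Subgroup.center (P ⧸ E) with hD
    obtain ⟨j, hj⟩ := IsPGroup.iff_card.1 ((hP.to_quotient E).to_subgroup D)
    have hdvd : 2 ∣ Nat.card D := by
      rw [hj]
      refine dvd_pow_self 2 fun h0 => hq1 ?_
      rw [h0, pow_zero, Subgroup.card_eq_one] at hj
      have hm : q ∈ D := ⟨hq, hqc⟩
      rwa [hj, Subgroup.mem_bot] at hm
    obtain ⟨⟨v, ⟨w, hw, rfl⟩, hvc⟩, hv⟩ := exists_prime_orderOf_dvd_card' (G := D) 2 hdvd
    replace hv : orderOf (π w) = 2 := by rw [← hv]; exact Subgroup.orderOf_coe ⟨π w, _⟩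
    refine ⟨w, hw, fun h => ?_, ?_, fun g => ?_⟩
    · rw [show π w = 1 from (QuotientGroup.eq_one_iff w).2 h, orderOf_one] at hv
      omega
    · refine (QuotientGroup.eq_one_iff _).1 ?_
      show π (w * w) = 1
      rw [map_mul, ← pow_two, ← hv, pow_orderOf_eq_one]
    · refine (QuotientGroup.eq_one_iff _).1 ?_
      show π (g⁻¹ * w * g * w⁻¹) = 1
      have hcomm := Subgroup.mem_center_iff.1 hvc (π g)
      rw [map_mul, map_mul, map_mul, map_inv, map_inv, mul_assoc _ (π w), ← hcomm, ← mul_assoc,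
        inv_mul_cancel, one_mul, mul_inv_cancel]
  -- the stabilizer of `X`
  let K : Subgroup P :=
    { carrier := {k | ∀ g, g ∈ X ↔ g * k ∈ X}
      one_mem' := fun g => by rw [mul_one]
      mul_mem' := fun {a b} ha hb g => by rw [ha g, hb (g * a), mul_assoc]
      inv_mem' := fun {a} ha g => by
        have := ha (g * a⁻¹)
        rw [inv_mul_cancel_right] at this
        exact this.symm }
  have hmemK : ∀ k ∈ C, k * k ∈ E → (∀ g, g⁻¹ * k * g * k⁻¹ ∈ E) → k ∈ K := by
    intro k hk hk2 hkc g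
    refine ⟨hinv k hk hk2 hkc g, fun h => ?_⟩
    have hk' : k⁻¹ * k⁻¹ ∈ E := by rw [← mul_inv_rev]; exact E.inv_mem hk2
    have := hinv k⁻¹ (C.inv_mem hk) hk' (fun g => by
      have h1 := hconjE k _ (E.inv_mem (hkc g))
      convert h1 using 1
      group) (g * k) h
    rwa [mul_inv_cancel_right] at this
  have hEK : E ≤ K := fun f hf => hmemK f (hEC hf) (mul_mem hf hf)
    fun g => mul_mem (hconjE g f hf) (E.inv_mem hf)
  have hwK : w ∈ K := hmemK w hwC hw2 hwc
  obtain ⟨j, hj⟩ := IsPGroup.iff_card.1 (hP.to_subgroup K)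
  have hlt : Nat.card E < Nat.card K := by
    refine lt_of_le_of_ne (Subgroup.card_le_of_le hEK) fun h => hwE ?_
    rw [Subgroup.eq_of_le_of_card_ge hEK h.ge]
    exact hwK
  have h8 : 8 ∣ Nat.card K := by
    rw [hE4, hj] at hlt
    rw [hj]
    refine (pow_dvd_pow 2 (show 3 ≤ j from ?_) : 2 ^ 3 ∣ 2 ^ j)
    by_contra hc
    have := Nat.pow_le_pow_right (show 0 < 2 by norm_num) (show j ≤ 2 by omega)
    omega
  have hX8 : 8 ∣ X.ncard :=
    h8.trans (card_dvd_ncard_of_mul_mem K X fun g hg k hk => (hk g).1 hg)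
  -- `X` consists of the solutions and their translates by `e`
  have hsq_e : ∀ g ∉ C, g * e * (g * e) = g * g * z := by
    intro g hg
    calc g * e * (g * e) = g * g * (g⁻¹ * e * g) * e := by group
      _ = g * g * (e * z * e) := by rw [hmove g hg]; group
      _ = g * g * z := by rw [mul_assoc e, ← hzc', ← mul_assoc e, hee, one_mul]
  have hXeq : X = {g : P | g ∉ C ∧ g * g = 1} ∪ (fun g => g * e) '' {g : P | g ∉ C ∧ g * g = 1} := by
    ext g
    constructor
    · rintro ⟨hgC, h | h⟩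
      · exact Or.inl ⟨hgC, h⟩
      · refine Or.inr ⟨g * e, ⟨fun h' => hgC ?_, ?_⟩, ?_⟩
        · simpa using C.mul_mem h' (C.inv_mem (hEC heE))
        · rw [hsq_e g hgC, h, hzz]
        · show g * e * e = g
          rw [mul_assoc, hee, mul_one]
    · rintro (⟨hgC, h⟩ | ⟨g', ⟨hgC, h⟩, rfl⟩)
      · exact ⟨hgC, Or.inl h⟩
      · refine ⟨fun h' => hgC (by simpa using C.mul_mem h' (C.inv_mem (hEC heE))), Or.inr ?_⟩
        show g' * e * (g' * e) = z
        rw [hsq_e g' hgC, h, one_mul]
  have hdisj : Disjoint {g : P | g ∉ C ∧ g * g = 1}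
      ((fun g => g * e) '' {g : P | g ∉ C ∧ g * g = 1}) := by
    rw [Set.disjoint_left]
    rintro g ⟨-, h1⟩ ⟨g', ⟨hgC, h⟩, rfl⟩
    rw [hsq_e g' hgC, h, one_mul] at h1
    exact hz1 h1
  have hcard2 : X.ncard = 2 * {g : P | g ∉ C ∧ g * g = 1}.ncard := by
    rw [hXeq, Set.ncard_union_eq hdisj (Set.toFinite _) (Set.toFinite _),
      Set.ncard_image_of_injective _ (mul_left_injective e)]
    omega
  omega

/-- A cyclic subgroup of index two of the dihedral, semidihedral or quaternion kind. -/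
def IsBad (P : Type*) [Group P] : Prop :=
  ∃ n : ℕ, ∃ x y : P, ∃ r : ℤ, 3 ≤ n ∧ Nat.card P = 2 ^ n ∧ orderOf x = 2 ^ (n - 1) ∧
    y ∉ Subgroup.zpowers x ∧ y * x * y⁻¹ = x ^ r ∧ 4 ∣ r + 1

/-- A cyclic subgroup of index two, in coordinates. -/
theorem exists_sq_eq {P : Type*} [Group P] [Finite P] {x : P}
    (hi : (Subgroup.zpowers x).index = 2) (y : P) : ∃ e : ℤ, y * y = x ^ e := by
  obtain ⟨e, he⟩ := Subgroup.mem_zpowers_iff.1
    ((Subgroup.mul_mem_iff_of_index_two hi).2 (Iff.rfl : y ∈ Subgroup.zpowers x ↔ _))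
  exact ⟨e, he.symm⟩

theorem conj_zpow' {P : Type*} [Group P] {x y : P} {r : ℤ} (h : y * x * y⁻¹ = x ^ r) (i : ℤ) :
    y * x ^ i * y⁻¹ = x ^ (r * i) := by
  rw [← MulAut.conj_apply, map_zpow, MulAut.conj_apply, h, ← zpow_mul]

theorem sq_of_coset {P : Type*} [Group P] {x y : P} {r e : ℤ} (h : y * x * y⁻¹ = x ^ r)
    (he : y * y = x ^ e) (i : ℤ) : x ^ i * y * (x ^ i * y) = x ^ (i * (1 + r) + e) := by
  calc x ^ i * y * (x ^ i * y) = x ^ i * (y * x ^ i * y⁻¹) * (y * y) := by group
    _ = x ^ (i * (1 + r) + e) := by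
      rw [conj_zpow' h, he, ← zpow_add, ← zpow_add]
      congr 1
      ring

theorem exists_eq_zpow_mul {P : Type*} [Group P] {x y : P}
    (hi : (Subgroup.zpowers x).index = 2) (hy : y ∉ Subgroup.zpowers x) {g : P}
    (hg : g ∉ Subgroup.zpowers x) : ∃ i : ℤ, g = x ^ i * y := by
  have h : g * y⁻¹ ∈ Subgroup.zpowers x := (Subgroup.mul_mem_iff_of_index_two hi).2
    (by rw [Subgroup.inv_mem_iff]; exact iff_of_false hg hy)
  obtain ⟨i, hi'⟩ := Subgroup.mem_zpowers_iff.1 h
  exact ⟨i, by rw [hi']; group⟩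

theorem index_zpowers {P : Type*} [Group P] [Finite P] {n : ℕ} (hn : 1 ≤ n)
    (hcard : Nat.card P = 2 ^ n) {x : P} (hx : orderOf x = 2 ^ (n - 1)) :
    (Subgroup.zpowers x).index = 2 := by
  have h := (Subgroup.zpowers x).card_mul_index
  rw [hcard, Nat.card_zpowers, hx, show 2 ^ n = 2 ^ (n - 1) * 2 by
    rw [← pow_succ, Nat.sub_add_cancel hn]] at h
  exact Nat.eq_of_mul_eq_mul_left (Nat.two_pow_pos _) h

/-- In the bad case every element outside the cyclic subgroup has order at most four. -/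
theorem bad_pow_four {P : Type*} [Group P] [Finite P] {n : ℕ} (hn : 3 ≤ n)
    (hcard : Nat.card P = 2 ^ n) {x y : P} {r : ℤ} (hx : orderOf x = 2 ^ (n - 1))
    (hy : y ∉ Subgroup.zpowers x) (hxy : y * x * y⁻¹ = x ^ r) (hr : 4 ∣ r + 1) :
    (2 : ℤ) ^ (n - 2) ∣ r + 1 ∧ ∀ g ∉ Subgroup.zpowers x, g ^ 4 = 1 := by
  have hi := index_zpowers (by omega) hcard hx
  have hd : ∀ a : ℤ, x ^ a = 1 ↔ (2 : ℤ) ^ (n - 1) ∣ a := fun a => by
    rw [← orderOf_dvd_iff_zpow_eq_one, hx]; push_cast; rfl
  obtain ⟨e, he⟩ := exists_sq_eq hi y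
  obtain ⟨t, ht⟩ := hr
  have hodd : IsCoprime ((2 : ℤ) ^ (n - 2)) (2 * t - 1) := IsCoprime.pow_left ⟨t, -1, by ring⟩
  have hsplit : (2 : ℤ) ^ (n - 1) = 2 * 2 ^ (n - 2) := by
    rw [← pow_succ', show n - 2 + 1 = n - 1 by omega]
  have h1 : (2 : ℤ) ^ (n - 1) ∣ r * r - 1 := by
    rw [← hd, zpow_sub, zpow_one, ← conj_zpow' hxy, ← hxy,
      show y * (y * x * y⁻¹) * y⁻¹ = (y * y) * x * (y * y)⁻¹ by group, he]
    group
  have hr1 : (2 : ℤ) ^ (n - 2) ∣ r + 1 := by
    refine hodd.dvd_of_dvd_mul_right ?_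
    rw [hsplit, show r * r - 1 = 2 * ((r + 1) * (2 * t - 1)) by linear_combination (r + 1) * ht] at h1
    exact Int.dvd_of_mul_dvd_mul_left (by norm_num) h1
  refine ⟨hr1, fun g hg => ?_⟩
  have he2 : (2 : ℤ) ^ (n - 2) ∣ e := by
    have h2 : (2 : ℤ) ^ (n - 1) ∣ r * e - e := by
      rw [← hd, zpow_sub, ← conj_zpow' hxy, ← he]
      group
    refine hodd.dvd_of_dvd_mul_right ?_
    rw [hsplit, show r * e - e = 2 * (e * (2 * t - 1)) by linear_combination e * ht] at h2
    exact Int.dvd_of_mul_dvd_mul_left (by norm_num) h2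
  obtain ⟨i, rfl⟩ := exists_eq_zpow_mul hi hy hg
  rw [show (4 : ℕ) = 2 * 2 from rfl, pow_mul, pow_two, pow_two, sq_of_coset hxy he, ← zpow_add, hd,
    hsplit, ← two_mul]
  rw [add_comm 1 r]
  exact mul_dvd_mul_left _ (dvd_add (hr1.mul_left i) he2)

theorem bad_sqCount {P : Type u} [Group P] [Finite P] (h : IsBad P) : ¬ 4 ∣ sqCount P ∧ 2 ∣ sqCount P := by
  obtain ⟨n, x, y, r, hn, hcard, hx, hy, hxy, hr⟩ := h
  haveI : Fact (Nat.Prime 2) := ⟨Nat.prime_two⟩
  have hi := index_zpowers (by omega) hcard hx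
  obtain ⟨hr1, -⟩ := bad_pow_four hn hcard hx hy hxy hr
  obtain ⟨e, he⟩ := exists_sq_eq hi y
  set Z := Subgroup.zpowers x with hZ
  have hsplit : sqCount P = {g : P | g ∈ Z ∧ g * g = 1}.ncard + {g : P | g ∉ Z ∧ g * g = 1}.ncard := by
    rw [← Set.ncard_union_eq ?_ (Set.toFinite _) (Set.toFinite _)]
    · refine congrArg Set.ncard (Set.ext fun g => ?_)
      simp only [Set.mem_union, Set.mem_ofPred_eq]
      tauto
    · rw [Set.disjoint_left]
      exact fun g h1 h2 => h2.1 h1.1
  have hin : {g : P | g ∈ Z ∧ g * g = 1}.ncard = 2 := by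
    have h1 : sqCount ↥Z = 2 := by
      rw [sqCount_eq, subCount, card_subgroups_eq_one_of_isCyclic (p := 2) (n := n - 1)
        (by rw [hZ, Nat.card_zpowers, hx]) (by omega)]
    rw [← h1, sqCount, ← Set.ncard_image_of_injective _ Z.subtype_injective]
    congr 1
    ext g
    constructor
    · rintro ⟨hg, h⟩
      exact ⟨⟨g, hg⟩, Subtype.ext h, rfl⟩
    · rintro ⟨⟨v, hv⟩, h, rfl⟩
      exact ⟨hv, congrArg Subtype.val h⟩
  have hout : 4 ∣ {g : P | g ∉ Z ∧ g * g = 1}.ncard := by
    let K : Subgroup P :=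
      { carrier := {k | k ∈ Z ∧ ∀ g ∉ Z, g * k * (g * k) = g * g}
        one_mem' := ⟨one_mem _, fun g _ => by rw [mul_one]⟩
        mul_mem' := fun {a b} ha hb => ⟨mul_mem ha.1 hb.1, fun g hg => by
          rw [← mul_assoc g, hb.2 (g * a) (fun h => hg (by simpa using Z.mul_mem h (Z.inv_mem ha.1))),
            ha.2 g hg]⟩
        inv_mem' := fun {a} ha => ⟨inv_mem ha.1, fun g hg => by
          have := ha.2 (g * a⁻¹) (fun h => hg (by simpa using Z.mul_mem h ha.1))
          rw [inv_mul_cancel_right] at this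
          exact this.symm⟩ }
    have hle : Subgroup.zpowers (x ^ 2) ≤ K := by
      refine Subgroup.zpowers_le.2 ⟨Subgroup.pow_mem _ (Subgroup.mem_zpowers x) 2, fun g hg => ?_⟩
      obtain ⟨i, rfl⟩ := exists_eq_zpow_mul hi hy hg
      rw [show x ^ i * y * x ^ 2 = x ^ (i + r * 2) * y by
        rw [show x ^ i * y * x ^ 2 = x ^ i * (y * x ^ (2 : ℤ) * y⁻¹) * y by group, conj_zpow' hxy,
          ← zpow_add]]
      rw [sq_of_coset hxy he, sq_of_coset hxy he, zpow_eq_zpow_iff_modEq, hx, Int.modEq_iff_dvd]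
      push_cast
      rw [show i * (1 + r) + e - ((i + r * 2) * (1 + r) + e) = -(r * (2 * (r + 1))) by ring,
        dvd_neg, show n - 1 = n - 2 + 1 by omega, pow_succ']
      exact (mul_dvd_mul_left 2 hr1).mul_left r
    have ho : orderOf (x ^ 2) = 2 ^ (n - 2) := by
      rw [orderOf_pow' x two_ne_zero, hx, show n - 1 = n - 2 + 1 by omega, pow_succ,
        Nat.gcd_mul_left_left, Nat.mul_div_cancel _ two_pos]
    rcases Nat.lt_or_ge n 4 with hn4 | hn4
    · -- order eight: the whole cyclic subgroup translates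
      have hn3 : n = 3 := by omega
      subst hn3
      have hxK : Z ≤ K := by
        refine Subgroup.zpowers_le.2 ⟨Subgroup.mem_zpowers x, fun g hg => ?_⟩
        obtain ⟨i, rfl⟩ := exists_eq_zpow_mul hi hy hg
        rw [show x ^ i * y * x = x ^ (i + r * 1) * y by
          rw [show x ^ i * y * x = x ^ i * (y * x ^ (1 : ℤ) * y⁻¹) * y by group, conj_zpow' hxy,
            ← zpow_add]]
        rw [sq_of_coset hxy he, sq_of_coset hxy he, zpow_eq_zpow_iff_modEq, hx, Int.modEq_iff_dvd]
        push_cast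
        rw [show i * (1 + r) + e - ((i + r * 1) * (1 + r) + e) = -(r * (r + 1)) by ring, dvd_neg]
        exact (by norm_num; exact hr : (2 : ℤ) ^ 2 ∣ r + 1).mul_left r
      refine Dvd.dvd.trans ?_ (card_dvd_ncard_of_mul_mem Z _ fun g hg k hk =>
        ⟨fun h => hg.1 (by simpa using Z.mul_mem h (Z.inv_mem hk)), ?_⟩)
      · rw [hZ, Nat.card_zpowers, hx]; norm_num
      · rw [(hxK hk).2 g hg.1, hg.2]
    · refine Dvd.dvd.trans ?_ (card_dvd_ncard_of_mul_mem (Subgroup.zpowers (x ^ 2)) _ fun g hg k hk =>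
        ⟨fun h => hg.1 (by simpa using Z.mul_mem h (Z.inv_mem (hle hk).1)), ?_⟩)
      · rw [Nat.card_zpowers, ho]
        exact (pow_dvd_pow 2 (show 2 ≤ n - 2 by omega) : 2 ^ 2 ∣ 2 ^ (n - 2))
      · rw [(hle hk).2 g hg.1, hg.2]
  omega

theorem bad_class {P : Type u} [Group P] [Finite P] {n : ℕ} (hcard : Nat.card P = 2 ^ n) (h : IsBad P) :
    Group.nilpotencyClass P = n - 1 := by
  obtain ⟨m, x, y, r, hm, hcm, hx, hy, hxy, hr⟩ := h
  have hmn : m = n := Nat.pow_right_injective le_rfl (hcm.symm.trans hcard)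
  subst hmn
  haveI : Fact (Nat.Prime 2) := ⟨Nat.prime_two⟩
  have hP : IsPGroup 2 P := IsPGroup.of_card hcard
  have hnc : ¬ IsCyclic P := by
    intro hc
    letI : CommGroup P := IsCyclic.commGroup
    rw [mul_comm y x, mul_inv_cancel_right] at hxy
    have h1 : x ^ (r - 1) = 1 := by rw [zpow_sub, ← hxy, zpow_one, mul_inv_cancel]
    rw [← orderOf_dvd_iff_zpow_eq_one, hx] at h1
    have h4 : (4 : ℤ) ∣ r - 1 := by
      refine dvd_trans ?_ h1
      push_cast
      exact (pow_dvd_pow 2 (show 2 ≤ m - 1 by omega) : (2 : ℤ) ^ 2 ∣ _)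
    omega
  -- the commutator subgroup
  have hlow : Subgroup.zpowers (x ^ (r - 1)) ≤ commutator P := by
    refine Subgroup.zpowers_le.2 ?_
    have he : x ^ (r - 1) = ⁅y, x⁆ := by
      rw [commutatorElement_def, hxy, zpow_sub, zpow_one]
    rw [he, commutator_def]
    exact Subgroup.commutator_mem_commutator (Subgroup.mem_top y) (Subgroup.mem_top x)
  have hge : 2 ^ (m - 2) ≤ Nat.card (commutator P) := by
    refine le_trans ?_ (Subgroup.card_le_of_le hlow)
    rw [Nat.card_zpowers]
    refine Nat.le_of_dvd (orderOf_pos _) ?_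
    obtain ⟨t, ht⟩ := hr
    have h1 : x ^ ((r - 1) * (orderOf (x ^ (r - 1)) : ℤ)) = 1 := by
      rw [zpow_mul, zpow_natCast, pow_orderOf_eq_one]
    rw [← orderOf_dvd_iff_zpow_eq_one, hx] at h1
    push_cast at h1
    have hsplit : (2 : ℤ) ^ (m - 1) = 2 * 2 ^ (m - 2) := by
      rw [← pow_succ', show m - 2 + 1 = m - 1 by omega]
    rw [hsplit, show (r - 1) * (orderOf (x ^ (r - 1)) : ℤ) =
      2 * ((orderOf (x ^ (r - 1)) : ℤ) * (2 * t - 1)) by
        linear_combination (orderOf (x ^ (r - 1)) : ℤ) * ht] at h1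
    have hodd : IsCoprime ((2 : ℤ) ^ (m - 2)) (2 * t - 1) := IsCoprime.pow_left ⟨t, -1, by ring⟩
    have h2 := hodd.dvd_of_dvd_mul_right (Int.dvd_of_mul_dvd_mul_left (by norm_num) h1)
    exact_mod_cast h2
  obtain ⟨j, hj⟩ := IsPGroup.iff_card.1 (hP.to_subgroup (commutator P))
  have hle : j ≤ m - 2 := by
    by_contra hgt
    have hN := card_index_prime_modEq (p := 2) hP hnc
    have hdvd : (commutator P).index ∣ 2 := by
      have h := (commutator P).card_mul_index
      rw [hj, hcard] at h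
      have hjm : 2 ^ (m - 1) ∣ 2 ^ j := pow_dvd_pow 2 (by omega)
      obtain ⟨c, hc⟩ := hjm
      rw [hc, show 2 ^ m = 2 ^ (m - 1) * 2 by rw [← pow_succ, Nat.sub_add_cancel (by omega : 1 ≤ m)],
        mul_assoc] at h
      exact Dvd.intro_left _ (Nat.eq_of_mul_eq_mul_left (Nat.two_pow_pos _) h)
    have hle1 : Nat.card {M : Subgroup P // M.index = 2} ≤ 1 := by
      refine Finite.card_le_one_iff_subsingleton.2 ⟨fun ⟨M, hM⟩ ⟨M', hM'⟩ => Subtype.ext ?_⟩
      have key : ∀ N : Subgroup P, N.index = 2 → commutator P = N := by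
        intro N hN
        haveI := Subgroup.normal_of_index_eq_two hN
        have hcN : commutator P ≤ N := by
          haveI : Fact (Nat.Prime 2) := ⟨Nat.prime_two⟩
          haveI : IsCyclic (P ⧸ N) := isCyclic_of_prime_card (show Nat.card (P ⧸ N) = 2 from hN)
          exact Subgroup.Normal.quotient_commutative_iff_commutator_le.1
            ⟨⟨fun a b => (IsCyclic.commGroup (α := P ⧸ N)).mul_comm a b⟩⟩
        have h1 := Subgroup.relIndex_mul_index hcN
        rw [hN] at h1
        have h2 : (commutator P).relIndex N = 1 := by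
          rcases (Nat.dvd_prime Nat.prime_two).1 hdvd with h | h <;> omega
        exact le_antisymm hcN (Subgroup.relIndex_eq_one.1 h2)
      exact (key M hM).symm.trans (key M' hM')
    unfold Nat.ModEq at hN
    omega
  have hcj : Nat.card (commutator P) = 2 ^ (m - 2) := by
    rw [hj] at hge ⊢
    rw [le_antisymm hle ((Nat.pow_le_pow_iff_right (by norm_num)).1 hge)]
  obtain ⟨k, rfl⟩ : ∃ k, m = k + 3 := ⟨m - 3, by omega⟩
  exact CfsgLib.PGroups.class_of_index_four k hcard hcj

theorem bad_cycMax_odd {P : Type u} [Group P] [Finite P] (h : IsBad P) : cycMaxCount P % 2 = 1 := by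
  obtain ⟨n, x, y, r, hn, hcard, hx, hy, hxy, hr⟩ := h
  haveI : Fact (Nat.Prime 2) := ⟨Nat.prime_two⟩
  have hi := index_zpowers (by omega) hcard hx
  have hnc : ¬ IsCyclic P := by
    intro hc
    letI : CommGroup P := IsCyclic.commGroup
    rw [mul_comm y x, mul_inv_cancel_right] at hxy
    have h1 : x ^ (r - 1) = 1 := by rw [zpow_sub, ← hxy, zpow_one, mul_inv_cancel]
    rw [← orderOf_dvd_iff_zpow_eq_one, hx] at h1
    have h4 : (4 : ℤ) ∣ r - 1 := by
      refine dvd_trans ?_ h1
      push_cast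
      exact (pow_dvd_pow 2 (show 2 ≤ n - 1 by omega) : (2 : ℤ) ^ 2 ∣ _)
    omega
  obtain ⟨hr1, hfour⟩ := bad_pow_four hn hcard hx hy hxy hr
  obtain ⟨e, he⟩ := exists_sq_eq hi y
  have hMcard : ∀ M : Subgroup P, M.index = 2 → Nat.card M = 2 ^ (n - 1) := fun M hM =>
    card_of_index_eq hcard (by omega) hM
  by_cases hall : ∀ M : Subgroup P, M.index = 2 → IsCyclic M
  · have he' : cycMaxCount P = Nat.card {M : Subgroup P // M.index = 2} :=
      Nat.card_congr (Equiv.subtypeEquivRight fun M => ⟨fun h => h.1, fun h => ⟨h, hall M h⟩⟩)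
    have hN := card_index_prime_modEq (p := 2) (IsPGroup.of_card hcard) hnc
    rw [← he'] at hN
    unfold Nat.ModEq at hN
    omega
  · push Not at hall
    obtain ⟨M0, hM0, hM0c⟩ := hall
    have huniq : ∀ M : Subgroup P, M.index = 2 → IsCyclic M → M = Subgroup.zpowers x := by
      intro M hM hMc
      obtain ⟨g, hg⟩ := (Subgroup.isCyclic_iff_exists_zpowers_eq_top M).1 hMc
      have hgo : orderOf g = 2 ^ (n - 1) := by rw [← Nat.card_zpowers, hg, hMcard M hM]
      by_contra hne
      have hgx : g ∉ Subgroup.zpowers x := fun h => hne (by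
        rw [← hg]
        exact Subgroup.eq_of_le_of_card_ge (Subgroup.zpowers_le.2 h)
          (by rw [Nat.card_zpowers, Nat.card_zpowers, hgo, hx]))
      have hd : 2 ^ (n - 1) ∣ 2 ^ 2 := hgo ▸ orderOf_dvd_of_pow_eq_one (hfour g hgx)
      rw [Nat.pow_dvd_pow_iff_le_right (by norm_num)] at hd
      have hn3 : n = 3 := by omega
      subst hn3
      -- then every element outside `⟨x⟩` has order four
      obtain ⟨i, rfl⟩ := exists_eq_zpow_mul hi hy hgx
      have hey : x ^ e ≠ 1 := by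
        intro h0
        have h2 : (x ^ i * y) * (x ^ i * y) = 1 := by
          rw [sq_of_coset hxy he, zpow_add, h0, mul_one, ← orderOf_dvd_iff_zpow_eq_one, hx]
          push_cast
          rw [add_comm 1 r]
          exact (by norm_num; exact hr : (2 : ℤ) ^ (3 - 1) ∣ r + 1).mul_left i
        have := orderOf_dvd_of_pow_eq_one (n := 2) (x := x ^ i * y) (by rw [pow_two, h2])
        rw [hgo] at this
        norm_num at this
      refine hM0c ?_
      have hc0 := hMcard M0 hM0
      obtain ⟨g0, hg0, hg0x⟩ : ∃ g0 ∈ M0, g0 ∉ Subgroup.zpowers x := by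
        by_contra hno
        push Not at hno
        refine hM0c ?_
        rw [Subgroup.eq_of_le_of_card_ge (show M0 ≤ Subgroup.zpowers x from hno)
          (by rw [hc0, Nat.card_zpowers, hx])]
        infer_instance
      obtain ⟨j, rfl⟩ := exists_eq_zpow_mul hi hy hg0x
      have hsq : (x ^ j * y) * (x ^ j * y) = x ^ e := by
        rw [sq_of_coset hxy he, zpow_add,
          show x ^ (j * (1 + r)) = 1 from ?_, one_mul]
        rw [← orderOf_dvd_iff_zpow_eq_one, hx]
        push_cast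
        rw [add_comm 1 r]
        exact (by norm_num; exact hr : (2 : ℤ) ^ (3 - 1) ∣ r + 1).mul_left j
      have ho : orderOf (x ^ j * y) = 2 ^ 2 := by
        refine orderOf_eq_prime_pow ?_ ?_
        · rw [pow_one, pow_two, hsq]; exact hey
        · exact hfour _ hg0x
      rw [← Subgroup.eq_of_le_of_card_ge (Subgroup.zpowers_le.2 hg0)
        (by rw [hc0, Nat.card_zpowers, ho])]
      infer_instance
    have : Nat.card {M : Subgroup P // M.index = 2 ∧ IsCyclic M} = 1 := by
      haveI : Unique {M : Subgroup P // M.index = 2 ∧ IsCyclic M} :=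
        { default := ⟨Subgroup.zpowers x, hi, inferInstance⟩
          uniq := fun M => Subtype.ext (huniq M.1 M.2.1 M.2.2) }
      exact Nat.card_unique
    rw [cycMaxCount, this]

theorem good_cycMax_even {P : Type u} [Group P] [Finite P] {n : ℕ} (hn : 3 ≤ n)
    (hcard : Nat.card P = 2 ^ n) (hnc : ¬ IsCyclic P) (hnb : ¬ IsBad P) : cycMaxCount P % 2 = 0 := by
  haveI : Fact (Nat.Prime 2) := ⟨Nat.prime_two⟩
  have hMcard : ∀ M : Subgroup P, M.index = 2 → Nat.card M = 2 ^ (n - 1) := fun M hM =>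
    card_of_index_eq hcard (by omega) hM
  by_cases hex : ∃ M : Subgroup P, M.index = 2 ∧ IsCyclic M
  swap
  · haveI : IsEmpty {M : Subgroup P // M.index = 2 ∧ IsCyclic M} := ⟨fun M => hex ⟨M.1, M.2⟩⟩
    rw [cycMaxCount, Nat.card_of_isEmpty]
  obtain ⟨M, hM, hMc⟩ := hex
  obtain ⟨x, rfl⟩ := (Subgroup.isCyclic_iff_exists_zpowers_eq_top M).1 hMc
  have hx : orderOf x = 2 ^ (n - 1) := by rw [← Nat.card_zpowers, hMcard _ hM]
  obtain ⟨y, hy⟩ : ∃ y, y ∉ Subgroup.zpowers x := by
    by_contra! hall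
    rw [(Subgroup.eq_top_iff' _).2 hall, Subgroup.index_top] at hM
    omega
  haveI := Subgroup.normal_of_index_eq_two hM
  obtain ⟨r, hr⟩ := Subgroup.mem_zpowers_iff.1
    (Subgroup.Normal.conj_mem inferInstance x (Subgroup.mem_zpowers x) y)
  have hxy : y * x * y⁻¹ = x ^ r := hr.symm
  obtain ⟨e, he⟩ := exists_sq_eq hM y
  have hd : ∀ a : ℤ, x ^ a = 1 ↔ (2 : ℤ) ^ (n - 1) ∣ a := fun a => by
    rw [← orderOf_dvd_iff_zpow_eq_one, hx]; push_cast; rfl
  have h2dvd : (2 : ℤ) ∣ 2 ^ (n - 1) := dvd_pow_self 2 (by omega)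
  -- `r ≡ 1 mod 4`
  have hr4 : (4 : ℤ) ∣ r - 1 := by
    have h1 : (2 : ℤ) ^ (n - 1) ∣ r * r - 1 := by
      rw [← hd, zpow_sub, zpow_one, ← conj_zpow' hxy, ← hxy,
        show y * (y * x * y⁻¹) * y⁻¹ = (y * y) * x * (y * y)⁻¹ by group, he]
      group
    have hodd : r % 2 = 1 := by
      by_contra h0
      have h2 : (2 : ℤ) ∣ r := Int.dvd_of_emod_eq_zero (by omega)
      have := dvd_sub (h2.mul_left r) (h2dvd.trans h1)
      norm_num at this
    by_contra h4
    exact hnb ⟨n, x, y, r, hn, hcard, hx, hy, hxy, by omega⟩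
  obtain ⟨t, ht⟩ := hr4
  -- `y * y` is an even power of `x`
  have hgen : ∀ g : P, g ∉ Subgroup.zpowers x → ∀ a : ℤ, g * g = x ^ a → a % 2 = 0 := by
    intro g hg a hga
    by_contra hodd
    have hxg : x ∈ Subgroup.zpowers g := by
      have hcop : IsCoprime a (2 ^ (n - 1)) :=
        (IsCoprime.pow_right ⟨1, -(a / 2), by omega⟩)
      obtain ⟨u, v, huv⟩ := hcop
      have hex : x = (g * g) ^ u := by
        rw [hga, ← zpow_mul]
        conv_lhs => rw [← zpow_one x, ← huv, zpow_add, (hd _).2 (Dvd.intro_left v rfl), mul_one,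
          mul_comm u a]
      rw [hex]
      exact Subgroup.zpow_mem _ (mul_mem (Subgroup.mem_zpowers g) (Subgroup.mem_zpowers g)) u
    refine hnc ⟨g, fun b => ?_⟩
    have htop : Subgroup.zpowers g = ⊤ := by
      by_contra hne
      have hle : Subgroup.zpowers x ≤ Subgroup.zpowers g := Subgroup.zpowers_le.2 hxg
      have hdvd := Subgroup.index_dvd_of_le hle
      rw [hM] at hdvd
      rcases (Nat.dvd_prime Nat.prime_two).1 hdvd with h | h
      · exact hne (Subgroup.index_eq_one.1 h)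
      · refine hg ?_
        have heq := Subgroup.relIndex_mul_index hle
        rw [h, hM] at heq
        exact Subgroup.relIndex_eq_one.1 (by omega) (Subgroup.mem_zpowers g)
    exact (htop.symm ▸ Subgroup.mem_top b : b ∈ Subgroup.zpowers g)
  have he2 : e % 2 = 0 := hgen y hy e he
  obtain ⟨f, rfl⟩ : ∃ f, e = 2 * f := ⟨e / 2, by omega⟩
  set i0 : ℤ := 1 + f with hi0
  set g0 := x ^ i0 * y with hg0
  have hg0x : g0 ∉ Subgroup.zpowers x := fun h => hy (by
    simpa [hg0] using Subgroup.mul_mem _ (Subgroup.zpow_mem _ (Subgroup.mem_zpowers x) (-i0)) h)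
  have hsq0 : g0 * g0 = x ^ (2 * (i0 * (2 * t + 1) + f)) := by
    rw [hg0, sq_of_coset hxy he]; congr 1; linear_combination i0 * ht
  have hodd0 : IsCoprime ((2 : ℤ) ^ (n - 1)) (i0 * (2 * t + 1) + f) := by
    refine IsCoprime.pow_left ⟨-((i0 * t + f)), 1, ?_⟩
    rw [hi0]; ring
  have hx2 : x ^ (2 : ℤ) ∈ Subgroup.zpowers g0 := by
    obtain ⟨u, v, huv⟩ := hodd0
    have : x ^ (2 : ℤ) = (g0 * g0) ^ v := by
      rw [hsq0, ← zpow_mul]
      conv_lhs => rw [show (2 : ℤ) = 2 * (i0 * (2 * t + 1) + f) * v + 2 ^ (n - 1) * (2 * u) by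
        linear_combination -2 * huv, zpow_add, (hd _).2 (Dvd.intro _ rfl), mul_one]
    rw [this]
    exact Subgroup.zpow_mem _ (mul_mem (Subgroup.mem_zpowers g0) (Subgroup.mem_zpowers g0)) v
  have hidx0 : (Subgroup.zpowers g0).index = 2 := by
    have hne : Subgroup.zpowers g0 ≠ ⊤ := fun h => hnc ⟨g0, fun b => (h.symm ▸ Subgroup.mem_top b : b ∈ Subgroup.zpowers g0)⟩
    have ho2 : orderOf (x ^ (2 : ℤ)) = 2 ^ (n - 2) := by
      rw [show (2 : ℤ) = ((2 : ℕ) : ℤ) from rfl, zpow_natCast, orderOf_pow' x two_ne_zero, hx,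
        show n - 1 = n - 2 + 1 by omega, pow_succ, Nat.gcd_mul_left_left, Nat.mul_div_cancel _ two_pos]
    have hge : 2 ^ (n - 2) < Nat.card (Subgroup.zpowers g0) := by
      refine lt_of_le_of_ne ?_ fun h => ?_
      · have hc := Subgroup.card_le_of_le (Subgroup.zpowers_le.2 hx2)
        rwa [Nat.card_zpowers (x ^ (2 : ℤ)), ho2] at hc
      have heq := Subgroup.eq_of_le_of_card_ge (Subgroup.zpowers_le.2 hx2)
        (by rw [Nat.card_zpowers (x ^ (2 : ℤ)), ho2]; exact h.ge)
      have hm : g0 ∈ Subgroup.zpowers (x ^ (2 : ℤ)) := heq.symm ▸ Subgroup.mem_zpowers g0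
      exact hg0x (Subgroup.zpowers_le.2 (Subgroup.zpow_mem _ (Subgroup.mem_zpowers x) 2) hm)
    have hmul := (Subgroup.zpowers g0).card_mul_index
    rw [hcard] at hmul
    obtain ⟨j, hjle, hj⟩ := (Nat.dvd_prime_pow Nat.prime_two).1 (Dvd.intro _ hmul)
    rw [hj] at hge hmul
    have hj1 : n - 2 < j := (Nat.pow_lt_pow_iff_right (by norm_num)).1 hge
    have hjn : j ≠ n := by
      rintro rfl
      refine hne (Subgroup.index_eq_one.1 ?_)
      exact Nat.eq_of_mul_eq_mul_left (Nat.two_pow_pos j) (by rw [hmul, mul_one])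
    rw [show j = n - 1 by omega, show 2 ^ n = 2 ^ (n - 1) * 2 by
      rw [← pow_succ, Nat.sub_add_cancel (by omega : 1 ≤ n)]] at hmul
    exact Nat.eq_of_mul_eq_mul_left (Nat.two_pow_pos _) hmul
  have hpair : ∀ M : Subgroup P, M.index = 2 ∧ IsCyclic M ↔
      M = Subgroup.zpowers x ∨ M = Subgroup.zpowers g0 := by
    intro M'
    constructor
    · rintro ⟨hM', hMc'⟩
      obtain ⟨g, hg⟩ := (Subgroup.isCyclic_iff_exists_zpowers_eq_top M').1 hMc'
      have hgo : orderOf g = 2 ^ (n - 1) := by rw [← Nat.card_zpowers, hg, hMcard M' hM']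
      by_cases hgx : g ∈ Subgroup.zpowers x
      · left
        rw [← hg]
        exact Subgroup.eq_of_le_of_card_ge (Subgroup.zpowers_le.2 hgx)
          (by rw [Nat.card_zpowers, Nat.card_zpowers, hgo, hx])
      · right
        obtain ⟨i, rfl⟩ := exists_eq_zpow_mul hM hy hgx
        rw [← hg]
        refine Subgroup.eq_of_le_of_card_ge (Subgroup.zpowers_le.2 ?_)
          (by rw [hg, hMcard M' hM', card_of_index_eq hcard (by omega) hidx0])
        obtain ⟨s, hs⟩ : (2 : ℤ) ∣ i - i0 := by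
          by_contra hs
          have hq : (2 : ℤ) ∣ i * (2 * t + 1) + f := by
            obtain ⟨q, hq⟩ : ∃ q, i - i0 = 2 * q + 1 := ⟨(i - i0) / 2, by omega⟩
            refine ⟨i0 * t + f + 1 + 2 * q * t + q + t, ?_⟩
            rw [show i = i0 + (2 * q + 1) by omega, hi0]
            ring
          obtain ⟨q, hq⟩ := hq
          have h1 : (x ^ i * y) ^ (2 ^ (n - 2)) = 1 := by
            rw [show n - 2 = 1 + (n - 3) by omega, pow_add, pow_one, pow_mul, pow_two,
              sq_of_coset hxy he, ← zpow_natCast, ← zpow_mul, hd]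
            push_cast
            refine ⟨q, ?_⟩
            rw [show n - 1 = 2 + (n - 3) by omega, pow_add]
            linear_combination (2 : ℤ) ^ (n - 3) * (i * ht + 2 * hq)
          have := hgo ▸ orderOf_dvd_of_pow_eq_one h1
          rw [Nat.pow_dvd_pow_iff_le_right (by norm_num)] at this
          omega
        rw [show x ^ i * y = (x ^ (2 : ℤ)) ^ s * g0 by
          rw [hg0, ← zpow_mul, ← mul_assoc, ← zpow_add, show 2 * s + i0 = i by omega]]
        exact mul_mem (Subgroup.zpow_mem _ hx2 s) (Subgroup.mem_zpowers g0)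
    · rintro (rfl | rfl)
      · exact ⟨hM, inferInstance⟩
      · exact ⟨hidx0, inferInstance⟩
  have hne : Subgroup.zpowers x ≠ Subgroup.zpowers g0 := fun h => hg0x (h ▸ Subgroup.mem_zpowers g0)
  have htwo : cycMaxCount P = 2 := by
    rw [cycMaxCount]
    show Nat.card ↥{M : Subgroup P | M.index = 2 ∧ IsCyclic M} = 2
    rw [show {M : Subgroup P | M.index = 2 ∧ IsCyclic M} =
      ({Subgroup.zpowers x, Subgroup.zpowers g0} : Set (Subgroup P)) from Set.ext hpair,
      Nat.card_coe_set_eq, Set.ncard_pair hne]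
  omega

/-- A non-cyclic 2-group not of bad type has a normal four subgroup which is not self-centralizing. -/
theorem exists_four_of_not_bad {P : Type u} [Group P] [Finite P] {n : ℕ} (hn : 3 ≤ n)
    (hcard : Nat.card P = 2 ^ n) (hnc : ¬ IsCyclic P) (hnb : ¬ IsBad P) : 4 ∣ sqCount P := by
  haveI : Fact (Nat.Prime 2) := ⟨Nat.prime_two⟩
  have hP : IsPGroup 2 P := IsPGroup.of_card hcard
  have hbadD : ∀ (x y : P) (r : ℤ), orderOf x = 2 ^ (n - 1) → y ∉ Subgroup.zpowers x →
      y * x * y⁻¹ = x ^ r → 4 ∣ r + 1 → False :=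
    fun x y r h1 h2 h3 h4 => hnb ⟨n, x, y, r, hn, hcard, h1, h2, h3, h4⟩
  have hinv4 : ∀ (x y : P), orderOf x = 2 ^ (n - 1) → y ∉ Subgroup.zpowers x →
      y * x * y⁻¹ = x⁻¹ → False := fun x y h1 h2 h3 =>
    hbadD x y (-1) h1 h2 (by rw [h3, zpow_neg_one]) ⟨0, by norm_num⟩
  by_cases hna : CfsgLib.TwoGroups.NormalAbelianCyclic P
  · exfalso
    rcases CfsgLib.TwoGroups.isCyclic_or_of_normalAbelianCyclic hP hna with h | ⟨-, h⟩
    · exact hnc h
    rcases h with ⟨m, hm, ⟨e⟩⟩ | ⟨m, hm, ⟨e⟩⟩ | ⟨m, hm, hc, x, y, hx, hy, hxy⟩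
    · have hmn : m + 1 = n := Nat.pow_right_injective le_rfl (by
        have := Nat.card_congr e.toEquiv
        rw [hcard, DihedralGroup.nat_card] at this
        show 2 ^ (m + 1) = 2 ^ n
        rw [this, pow_succ'])
      refine hinv4 (e.symm (DihedralGroup.r 1)) (e.symm (DihedralGroup.sr 0)) ?_ ?_ ?_
      · rw [MulEquiv.orderOf_eq, DihedralGroup.orderOf_r_one, show n - 1 = m by omega]
      · rintro ⟨i, hi⟩
        have := congrArg e hi
        rw [map_zpow, MulEquiv.apply_symm_apply, MulEquiv.apply_symm_apply,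
          DihedralGroup.r_one_zpow] at this
        simp at this
      · apply e.injective
        simp
    · haveI : NeZero (2 ^ m) := ⟨pow_ne_zero _ two_ne_zero⟩
      have hmn : m + 2 = n := Nat.pow_right_injective le_rfl (by
        have := Nat.card_congr e.toEquiv
        rw [hcard, Nat.card_eq_fintype_card (α := QuaternionGroup (2 ^ m)), QuaternionGroup.card] at this
        show 2 ^ (m + 2) = 2 ^ n
        rw [this, pow_add]; ring)
      refine hinv4 (e.symm (QuaternionGroup.a 1)) (e.symm (QuaternionGroup.xa 0)) ?_ ?_ ?_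
      · rw [MulEquiv.orderOf_eq, QuaternionGroup.orderOf_a_one, show n - 1 = m + 1 by omega, pow_succ']
      · rintro ⟨i, hi⟩
        have h0 := congrArg e hi
        rw [map_zpow, MulEquiv.apply_symm_apply, MulEquiv.apply_symm_apply] at h0
        have hcomm : Commute (QuaternionGroup.a (1 : ZMod (2 * 2 ^ m))) (QuaternionGroup.xa 0) :=
          h0 ▸ (Commute.refl _).zpow_right i
        have h1 := hcomm.eq
        simp only [QuaternionGroup.a_mul_xa, QuaternionGroup.xa_mul_a, QuaternionGroup.xa.injEq,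
          zero_sub, zero_add] at h1
        have h2 : ((2 : ℕ) : ZMod (2 * 2 ^ m)) = 0 := by
          push_cast; linear_combination -h1
        rw [ZMod.natCast_eq_zero_iff] at h2
        have h3 : 2 ^ 1 ≤ 2 ^ m := Nat.pow_le_pow_right (by norm_num) hm
        have := Nat.le_of_dvd two_pos h2
        omega
      · apply e.injective
        rw [map_mul, map_mul, map_inv, map_inv, MulEquiv.apply_symm_apply, MulEquiv.apply_symm_apply,
          mul_inv_eq_iff_eq_mul, eq_inv_mul_iff_mul_eq]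
        simp
    · have hmn : m + 1 = n := Nat.pow_right_injective le_rfl (hc.symm.trans hcard)
      refine hbadD x y (2 ^ (m - 1) - 1 : ℕ) (by rw [hx, show n - 1 = m by omega]) ?_
        (by rw [zpow_natCast]; exact hxy) ?_
      · intro hmem
        obtain ⟨i, rfl⟩ := Subgroup.mem_zpowers_iff.1 hmem
        rw [((Commute.refl x).zpow_left i).eq, mul_inv_cancel_right] at hxy
        have h1 : x ^ (1 : ℕ) = x ^ (2 ^ (m - 1) - 1) := by rw [pow_one]; exact hxy
        rw [pow_eq_pow_iff_modEq, hx] at h1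
        have h4 : 4 ∣ 2 ^ (m - 1) := (pow_dvd_pow 2 (show 2 ≤ m - 1 by omega) : 2 ^ 2 ∣ _)
        have h4' : 4 ∣ 2 ^ m := (pow_dvd_pow 2 (show 2 ≤ m by omega) : 2 ^ 2 ∣ _)
        have h5 := h1.of_dvd h4'
        have h6 := Nat.two_pow_pos (m - 1)
        unfold Nat.ModEq at h5
        omega
      · rw [Nat.cast_sub (Nat.one_le_two_pow)]
        push_cast
        rw [sub_add_cancel]
        exact (pow_dvd_pow 2 (show 2 ≤ m - 1 by omega) : (2 : ℤ) ^ 2 ∣ _)
  unfold CfsgLib.TwoGroups.NormalAbelianCyclic at hna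
  push Not at hna
  obtain ⟨B, hBn, hBc, hBnc⟩ := hna
  haveI := hBc
  let W : Subgroup P :=
    { carrier := {b | b ∈ B ∧ b * b = 1}
      one_mem' := ⟨one_mem _, one_mul 1⟩
      mul_mem' := fun {a b} ha hb => ⟨mul_mem ha.1 hb.1, by
        have hc : b * a = a * b := congrArg Subtype.val (mul_comm' (⟨b, hb.1⟩ : B) ⟨a, ha.1⟩)
        rw [mul_assoc, ← mul_assoc b, hc, mul_assoc a b, hb.2, mul_one, ha.2]⟩
      inv_mem' := fun {a} ha => ⟨inv_mem ha.1, by rw [← mul_inv_rev, ha.2, inv_one]⟩ }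
  haveI hWn : W.Normal := ⟨fun w hw g => ⟨hBn.conj_mem w hw.1 g, by
    rw [show g * w * g⁻¹ * (g * w * g⁻¹) = g * (w * w) * g⁻¹ by group, hw.2]; group⟩⟩
  obtain ⟨m, hm⟩ := IsPGroup.iff_card.mp (hP.to_subgroup W)
  have hm2 : 2 ≤ m := by
    by_contra hlt
    apply hBnc
    refine CfsgLib.CoprimeAction.isCyclic_of_prime_roots fun q hq => ?_
    by_cases hqp : q = 2
    · subst hqp
      refine le_trans (Nat.card_le_card_of_injective
        (fun b => (⟨((b : ↥B) : P), (b : ↥B).2, by
          have := congrArg Subtype.val b.2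
          rw [powMonoidHom_apply, pow_two] at this
          exact this⟩ : W))
        fun a b h => Subtype.ext (Subtype.ext (congrArg (fun w : W => (w : P)) h))) ?_
      rw [hm]
      exact (Nat.pow_le_pow_right two_pos (by omega : m ≤ 1)).trans_eq (pow_one 2)
    · have : Nat.card ↥(powMonoidHom q : ↥B →* ↥B).ker = 1 := by
        rw [Subgroup.card_eq_one, Subgroup.eq_bot_iff_forall]
        intro b hb
        obtain ⟨k, hk⟩ := hP.to_subgroup B b
        exact orderOf_eq_one_iff.mp (Nat.eq_one_of_dvd_coprimes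
          (((Nat.coprime_primes hq Nat.prime_two).mpr hqp).pow_right k)
          (orderOf_dvd_of_pow_eq_one hb) (orderOf_dvd_of_pow_eq_one hk))
      exact this.le.trans hq.pos
  obtain ⟨U, hUn, hUW, hU⟩ := CfsgLib.PGroups.exists_normal_card_le hP hm hm2
  haveI := hUn
  refine four_dvd_sqCount hP U hU (fun u hu => (hUW hu).2) fun hself => ?_
  have hcl : Group.nilpotencyClass P = n - 1 :=
    CfsgLib.PGroups.class_of_self_centralizing_sq n hcard U hU hself
  -- maximal class gives the bad shape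
  obtain ⟨k, rfl⟩ : ∃ k, n = k + 3 := ⟨n - 3, by omega⟩
  have hcc := CfsgLib.PGroups.card_commutator_of_maximal_class (by omega) hcard hcl
  rw [show k + 3 - 2 = k + 1 by omega] at hcc
  obtain ⟨x, hxo, hxi⟩ := CfsgLib.PGroups.exists_cyclic_index_two k hcard hcc
  obtain ⟨y, hy⟩ : ∃ y, y ∉ Subgroup.zpowers x := by
    by_contra! hall
    rw [(Subgroup.eq_top_iff' _).2 hall, Subgroup.index_top] at hxi
    omega
  haveI := Subgroup.normal_of_index_eq_two hxi
  obtain ⟨r, hr⟩ := Subgroup.mem_zpowers_iff.1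
    (Subgroup.Normal.conj_mem inferInstance x (Subgroup.mem_zpowers x) y)
  have hxy : y * x * y⁻¹ = x ^ r := hr.symm
  refine hbadD x y r (by rw [hxo]; rfl) hy hxy ?_
  by_contra h4
  -- otherwise the commutator subgroup is too small
  obtain ⟨e, he⟩ := exists_sq_eq hxi y
  have hd : ∀ a : ℤ, x ^ a = 1 ↔ (2 : ℤ) ^ (k + 2) ∣ a := fun a => by
    rw [← orderOf_dvd_iff_zpow_eq_one, hxo]; push_cast; rfl
  have h2d : (2 : ℤ) ∣ 2 ^ (k + 2) := dvd_pow_self 2 (by omega)
  have h1 : (2 : ℤ) ^ (k + 2) ∣ r * r - 1 := by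
    rw [← hd, zpow_sub, zpow_one, ← conj_zpow' hxy, ← hxy,
      show y * (y * x * y⁻¹) * y⁻¹ = (y * y) * x * (y * y)⁻¹ by group, he]
    group
  have hr4 : (4 : ℤ) ∣ r - 1 := by
    have hodd : r % 2 = 1 := by
      by_contra h0
      have h2 : (2 : ℤ) ∣ r := Int.dvd_of_emod_eq_zero (by omega)
      have := dvd_sub (h2.mul_left r) (h2d.trans h1)
      norm_num at this
    omega
  set D := Subgroup.zpowers (x ^ (4 : ℤ)) with hD
  haveI hDn : D.Normal := ⟨fun v hv g => by
    obtain ⟨i, rfl⟩ := Subgroup.mem_zpowers_iff.1 hv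
    obtain ⟨s, hs⟩ : ∃ s : ℤ, g * x * g⁻¹ = x ^ s :=
      (Subgroup.mem_zpowers_iff.1 (Subgroup.Normal.conj_mem inferInstance x
        (Subgroup.mem_zpowers x) g)).imp fun s hs => hs.symm
    rw [← zpow_mul, conj_zpow' hs, show s * (4 * i) = 4 * (s * i) by ring, zpow_mul]
    exact Subgroup.zpow_mem _ (Subgroup.mem_zpowers _) _⟩
  have hcomm : commutator P ≤ D := by
    obtain ⟨t, ht⟩ := hr4
    have hq : Commute (QuotientGroup.mk' D y) (QuotientGroup.mk' D x) := by
      refine mul_inv_eq_iff_eq_mul.1 (?_ : _ * _ * _⁻¹ = _)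
      rw [← map_mul, ← map_inv, ← map_mul, hxy]
      refine QuotientGroup.eq.2 ?_
      rw [← zpow_neg, ← zpow_add_one, show -r + 1 = 4 * (-t) by omega, zpow_mul]
      exact Subgroup.zpow_mem _ (Subgroup.mem_zpowers _) _
    refine Subgroup.Normal.quotient_commutative_iff_commutator_le.1 ⟨⟨fun a b => ?_⟩⟩
    obtain ⟨a, rfl⟩ := QuotientGroup.mk'_surjective D a
    obtain ⟨b, rfl⟩ := QuotientGroup.mk'_surjective D b
    have hgen : ∀ g : P, ∃ i : ℤ, g = x ^ i ∨ g = x ^ i * y := fun g => by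
      by_cases hg : g ∈ Subgroup.zpowers x
      · exact (Subgroup.mem_zpowers_iff.1 hg).imp fun i hi => Or.inl hi.symm
      · exact (exists_eq_zpow_mul hxi hy hg).imp fun i hi => Or.inr hi
    obtain ⟨i, rfl | rfl⟩ := hgen a <;> obtain ⟨j, rfl | rfl⟩ := hgen b <;>
      simp only [map_mul, map_zpow]
    · exact ((Commute.refl _).zpow_zpow i j).eq
    · exact (((Commute.refl _).zpow_zpow i j).mul_right (hq.symm.zpow_left i)).eq
    · exact ((((Commute.refl _).zpow_zpow j i).mul_right (hq.symm.zpow_left j))).symm.eq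
    · exact ((((Commute.refl _).zpow_zpow i j).mul_right (hq.symm.zpow_left i)).mul_left
        ((hq.zpow_right j).mul_right (Commute.refl _))).eq
  have hle := Subgroup.card_le_of_le hcomm
  rw [hcc, hD, Nat.card_zpowers, show (4 : ℤ) = ((4 : ℕ) : ℤ) from rfl, zpow_natCast,
    orderOf_pow' x (by norm_num), hxo, show (2 : ℕ) ^ (k + 2) = 2 ^ k * 4 by rw [pow_add]; norm_num,
    Nat.gcd_mul_left_left, Nat.mul_div_cancel _ (by norm_num : 0 < 4), pow_succ] at hle
  have := Nat.two_pow_pos k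
  omega

/-- The subgroup counts in orders `2 ^ k`, `k ≤ n - 2`, agree mod 4. -/
theorem subCount_modEq_one : ∀ (n : ℕ) {P : Type u} [Group P] [Finite P], Nat.card P = 2 ^ n →
    ∀ k, 1 ≤ k → k + 2 ≤ n → subCount P k % 4 = subCount P 1 % 4 := by
  intro n
  induction n with
  | zero => intro P _ _ _ k _ h; omega
  | succ n ih =>
    intro P _ _ hcard k hk1 hk
    haveI : Fact (Nat.Prime 2) := ⟨Nat.prime_two⟩
    have hP : IsPGroup 2 P := IsPGroup.of_card hcard
    by_cases hc : IsCyclic P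
    · rw [subCount, subCount, card_subgroups_eq_one_of_isCyclic hcard (by omega),
        card_subgroups_eq_one_of_isCyclic hcard (by omega)]
    rcases Nat.lt_or_ge k 2 with hk2 | hk2
    · rw [show k = 1 by omega]
    haveI := Fintype.ofFinite (Subgroup P)
    set A := Finset.univ.filter (fun M : Subgroup P => M.index = 2) with hA
    have hrec : ∀ a, a + 2 ≤ n + 1 → ((subCount P a : ℕ) : ZMod (2 ^ 2)) =
        (∑ M ∈ A, ((subCount ↥M a : ℕ) : ZMod (2 ^ 2))) -
          ((1 + 2 : ℕ) : ZMod (2 ^ 2)) + 1 := by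
      intro a ha
      rw [subCount, cast_card_subgroups_eq_sum hcard ha, cast_modEq (card_index_prime_modEq hP hc)]
      congr 2
      exact Finset.sum_congr rfl fun M _ => by rw [card_subgroups_le]; rfl
    have hMcard : ∀ M ∈ A, Nat.card M = 2 ^ n := fun M hM => by
      have := card_of_index_eq hcard (by omega) (Finset.mem_filter.1 hM).2
      rwa [Nat.add_sub_cancel] at this
    suffices h : ((subCount P k : ℕ) : ZMod (2 ^ 2)) = ((subCount P 1 : ℕ) : ZMod (2 ^ 2)) by
      rw [ZMod.natCast_eq_natCast_iff'] at h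
      exact h
    rcases Nat.lt_or_ge (k + 2) (n + 1) with hlt | hge
    · rw [hrec k hk, hrec 1 (by omega)]
      congr 2
      refine Finset.sum_congr rfl fun M hM => ?_
      rw [ZMod.natCast_eq_natCast_iff']
      exact ih (hMcard M hM) k hk1 (by omega)
    · -- one step below the maximal subgroups
      obtain rfl : n = k + 1 := by omega
      have hterm : ∀ M ∈ A, ((subCount ↥M k : ℕ) : ZMod (2 ^ 2)) =
          ((3 : ℕ) : ZMod (2 ^ 2)) - (if IsCyclic M then (2 : ZMod (2 ^ 2)) else 0) := by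
        intro M hM
        have hMc := hMcard M hM
        split_ifs with hcyc
        · rw [subCount, card_subgroups_eq_one_of_isCyclic hMc (by omega)]
          decide
        · have h1 : subCount ↥M k = Nat.card {N : Subgroup M // N.index = 2} := by
            have := card_subgroups_index_prime_eq (p := 2) hMc (by omega)
            rwa [Nat.add_sub_cancel] at this
          rw [h1, cast_modEq (card_index_prime_modEq (IsPGroup.of_card hMc) hcyc), sub_zero]
      have hs : A.sum (fun M => if IsCyclic M then (2 : ZMod (2 ^ 2)) else 0) =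
          ((2 * cycMaxCount P : ℕ) : ZMod (2 ^ 2)) := by
        rw [← Finset.sum_filter, Finset.sum_const, hA, Finset.filter_filter, nsmul_eq_mul,
          cycMaxCount, Nat.card_eq_fintype_card, Fintype.card_subtype]
        push_cast
        ring
      have hN : ((A.card : ℕ) : ZMod (2 ^ 2)) = ((3 : ℕ) : ZMod (2 ^ 2)) := by
        have := cast_modEq (card_index_prime_modEq (p := 2) hP hc)
        rw [Nat.card_eq_fintype_card, Fintype.card_subtype] at this
        exact this
      rw [hrec k hk, Finset.sum_congr rfl hterm, Finset.sum_sub_distrib, Finset.sum_const, hs,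
        nsmul_eq_mul, hN]
      have hsq := sqCount_eq P
      by_cases hb : IsBad P
      · obtain ⟨h4, h2⟩ := bad_sqCount hb
        have hodd := bad_cycMax_odd hb
        rw [show ((2 * cycMaxCount P : ℕ) : ZMod (2 ^ 2)) = ((2 : ℕ) : ZMod (2 ^ 2)) by
            rw [ZMod.natCast_eq_natCast_iff']; omega,
          show ((subCount P 1 : ℕ) : ZMod (2 ^ 2)) = ((1 : ℕ) : ZMod (2 ^ 2)) by
            rw [ZMod.natCast_eq_natCast_iff']; omega]
        decide
      · have h4 := exists_four_of_not_bad (by omega) hcard hc hb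
        have heven := good_cycMax_even (by omega) hcard hc hb
        rw [show ((2 * cycMaxCount P : ℕ) : ZMod (2 ^ 2)) = ((0 : ℕ) : ZMod (2 ^ 2)) by
            rw [ZMod.natCast_eq_natCast_iff']; omega,
          show ((subCount P 1 : ℕ) : ZMod (2 ^ 2)) = ((3 : ℕ) : ZMod (2 ^ 2)) by
            rw [ZMod.natCast_eq_natCast_iff']; omega]
        decide

/-- **Kulakoff's theorem** for `p = 2`. -/
theorem kulakoff_two {P : Type u} [Group P] [Finite P] {n : ℕ} (hcard : Nat.card P = 2 ^ n)
    (hnc : ¬ IsCyclic P) (hcl : Group.nilpotencyClass P ≠ n - 1) {k : ℕ} (hk1 : 1 ≤ k) (hk : k < n) :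
    Nat.card {H : Subgroup P // Nat.card H = 2 ^ k} ≡ 1 + 2 [MOD 2 ^ 2] := by
  haveI : Fact (Nat.Prime 2) := ⟨Nat.prime_two⟩
  rcases Nat.lt_or_ge k (n - 1) with hlt | hge
  swap
  · rw [show k = n - 1 by omega, card_subgroups_index_prime_eq hcard (by omega)]
    exact card_index_prime_modEq (IsPGroup.of_card hcard) hnc
  have hnb : ¬ IsBad P := fun hb => hcl (bad_class hcard hb)
  have h4 := exists_four_of_not_bad (by omega) hcard hnc hnb
  have h1 := subCount_modEq_one n hcard k hk1 (by omega)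
  have hsq := sqCount_eq P
  unfold subCount at h1 hsq
  show _ % _ = _ % _
  omega

end CfsgLib.PGroupCounting
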