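import Mathlib
import Cfsg.Agent.Lib.CoprimeAction.Basic
import Cfsg.Agent.Lib.NormalPComplement.Basic

/-!
An elementary exponential bound for the number of conjugacy classes of a permutation group:
a subgroup of `Sym(d)` has at most `4 ^ d` classes.

The weighted count `∑ x ∈ P, A ^ (cycles of x)` over a `p`-group `P` of permutations is at most
`A ^ orb * (A ^ (p - 1) + (p - 1)) ^ e` with `orb + (p - 1) * e = d`; the classes of elements
without prime divisors below `p` are then counted through their `p`-parts, the `p'`-part acting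
on the cycles of the `p`-part.
-/

set_option autoImplicit false
set_option linter.style.haveILetI false

namespace CfsgLib.PermClassBound

open Equiv
open scoped Classical

universe u

variable {α : Type u}

/-- Being in the same orbit. -/
def rel (G : Subgroup (Perm α)) : Setoid α where
  r a b := ∃ g ∈ G, g a = b
  iseqv :=
    { refl := fun a => ⟨1, G.one_mem, rfl⟩
      symm := fun {a b} ⟨g, hg, h⟩ => ⟨g⁻¹, G.inv_mem hg, by rw [← h]; simp⟩
      trans := fun {a b c} ⟨g, hg, h⟩ ⟨g', hg', h'⟩ =>
        ⟨g' * g, G.mul_mem hg' hg, by rw [Perm.mul_apply, h, h']⟩ }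

theorem rel_iff {G : Subgroup (Perm α)} {a b : α} : rel G a b ↔ ∃ g ∈ G, g a = b := Iff.rfl

/-- The number of orbits. -/
noncomputable def orb (G : Subgroup (Perm α)) : ℕ := Nat.card (Quotient (rel G))

/-- Restriction to an invariant set. -/
def restr (G : Subgroup (Perm α)) (q : α → Prop) (hq : ∀ g ∈ G, ∀ a, q (g a) ↔ q a) :
    G →* Perm {a // q a} where
  toFun g := Perm.subtypePerm g.1 (hq g.1 g.2)
  map_one' := Equiv.ext fun a => Subtype.ext rfl
  map_mul' g h := Equiv.ext fun a => Subtype.ext rfl

theorem restr_apply {G : Subgroup (Perm α)} {q : α → Prop} (hq : ∀ g ∈ G, ∀ a, q (g a) ↔ q a)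
    (g : G) (a : {a // q a}) : ((restr G q hq g a : {a // q a}) : α) = g.1 a := rfl

theorem not_inv {G : Subgroup (Perm α)} {q : α → Prop} (hq : ∀ g ∈ G, ∀ a, q (g a) ↔ q a) :
    ∀ g ∈ G, ∀ a, ¬ q (g a) ↔ ¬ q a := fun g hg a => not_congr (hq g hg a)

/-- Orbits are counted separately on an invariant set and on its complement. -/
theorem orb_split [Finite α] (G : Subgroup (Perm α)) (q : α → Prop)
    (hq : ∀ g ∈ G, ∀ a, q (g a) ↔ q a) :
    orb G = orb (restr G q hq).range + orb (restr G (fun a => ¬ q a) (not_inv hq)).range := by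
  let r1 := rel (restr G q hq).range
  let r2 := rel (restr G (fun a => ¬ q a) (not_inv hq)).range
  have h1 : ∀ a b : {a // q a}, r1 a b → rel G a.1 b.1 := by
    rintro a b ⟨_, ⟨g, rfl⟩, h⟩
    exact ⟨g.1, g.2, congrArg Subtype.val h⟩
  have h2 : ∀ a b : {a // ¬ q a}, r2 a b → rel G a.1 b.1 := by
    rintro a b ⟨_, ⟨g, rfl⟩, h⟩
    exact ⟨g.1, g.2, congrArg Subtype.val h⟩
  let f : Quotient r1 ⊕ Quotient r2 → Quotient (rel G) :=
    Sum.elim (Quotient.map Subtype.val h1) (Quotient.map Subtype.val h2)
  have hf : Function.Bijective f := by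
    constructor
    · rintro (x | x) (y | y) h <;> induction x using Quotient.inductionOn with
      | h a => induction y using Quotient.inductionOn with
        | h b =>
          obtain ⟨g, hg, hgab⟩ := Quotient.exact h
          first
          | exact congrArg Sum.inl (Quotient.sound ⟨_, ⟨⟨g, hg⟩, rfl⟩, Subtype.ext hgab⟩)
          | exact congrArg Sum.inr (Quotient.sound ⟨_, ⟨⟨g, hg⟩, rfl⟩, Subtype.ext hgab⟩)
          | exact absurd (hgab ▸ (hq g hg a.1).2 a.2) b.2
          | exact absurd ((hq g hg a.1).1 (hgab.symm ▸ b.2)) a.2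
    · intro z
      induction z using Quotient.inductionOn with
      | h a =>
        by_cases ha : q a
        · exact ⟨Sum.inl ⟦⟨a, ha⟩⟧, rfl⟩
        · exact ⟨Sum.inr ⟦⟨a, ha⟩⟧, rfl⟩
  rw [orb, ← Nat.card_congr (Equiv.ofBijective f hf), Nat.card_sum]
  rfl

theorem zpowers_inv {G : Subgroup (Perm α)} {q : α → Prop} (hq : ∀ g ∈ G, ∀ a, q (g a) ↔ q a)
    (x : G) : ∀ g ∈ Subgroup.zpowers (x : Perm α), ∀ a, q (g a) ↔ q a :=
  fun g hg => hq g (Subgroup.zpowers_le.2 x.2 hg)

theorem range_restr_zpowers {G : Subgroup (Perm α)} {q : α → Prop}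
    (hq : ∀ g ∈ G, ∀ a, q (g a) ↔ q a) (x : G) :
    (restr (Subgroup.zpowers (x : Perm α)) q (zpowers_inv hq x)).range =
      Subgroup.zpowers (restr G q hq x) := by
  ext y
  constructor
  · rintro ⟨⟨z, hz⟩, rfl⟩
    obtain ⟨i, rfl⟩ := Subgroup.mem_zpowers_iff.1 hz
    refine Subgroup.mem_zpowers_iff.2 ⟨i, ?_⟩
    rw [← map_zpow]
    exact Equiv.ext fun a => Subtype.ext (by rw [restr_apply, restr_apply, Subgroup.coe_zpow])
  · intro hy
    obtain ⟨i, rfl⟩ := Subgroup.mem_zpowers_iff.1 hy
    refine ⟨⟨(x : Perm α) ^ i, Subgroup.mem_zpowers_iff.2 ⟨i, rfl⟩⟩, ?_⟩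
    rw [← map_zpow]
    exact Equiv.ext fun a => Subtype.ext (by rw [restr_apply, restr_apply, Subgroup.coe_zpow])

theorem amgm (p : ℕ) (hp : 1 ≤ p) {X : ℝ} (hX : 1 ≤ X) :
    (p : ℝ) ^ p * X ≤ (X + (p - 1 : ℕ)) ^ p := by
  have hp0 : (0 : ℝ) < p := by exact_mod_cast hp
  have h := one_add_mul_le_pow (a := (X - 1) / p) (by
    have : 0 ≤ (X - 1) / p := div_nonneg (by linarith) hp0.le
    linarith) p
  rw [mul_div_cancel₀ _ hp0.ne', add_sub_cancel] at h
  calc (p : ℝ) ^ p * X ≤ (p : ℝ) ^ p * (1 + (X - 1) / p) ^ p :=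
        mul_le_mul_of_nonneg_left h (by positivity)
    _ = (X + (p - 1 : ℕ)) ^ p := by
        rw [← mul_pow]
        congr 1
        rw [Nat.cast_sub hp]
        field_simp
        push_cast
        ring

/-- The weighted count over a `p`-group of permutations. -/
theorem sum_pow_orb_le {p : ℕ} [hp : Fact p.Prime] {A : ℝ} (hA : 1 ≤ A) :
    ∀ (n : ℕ) {α : Type u} [Fintype α] (P : Subgroup (Perm α)), IsPGroup p P →
      Nat.card α + Nat.card P ≤ n →
      ∃ e, orb P + (p - 1) * e = Nat.card α ∧ Nat.card P ≤ p ^ e ∧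
        ∑ x : P, A ^ orb (Subgroup.zpowers (x : Perm α)) ≤
          A ^ orb P * (A ^ (p - 1) + (p - 1 : ℕ)) ^ e := by
  intro n
  induction n with
  | zero =>
    intro α _ P _ h
    have := Nat.card_pos (α := P)
    omega
  | succ n ih =>
    intro α _ P hP hn
    set β : ℝ := A ^ (p - 1) + (p - 1 : ℕ) with hβ
    have hA0 : 0 ≤ A := le_trans zero_le_one hA
    have hβ0 : 0 ≤ β := by positivity
    by_cases htr : ∀ a b : α, rel P a b
    swap
    · -- an invariant splitting
      push Not at htr
      obtain ⟨a, b, hab⟩ := htr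
      let q : α → Prop := fun c => rel P a c
      have hq : ∀ g ∈ P, ∀ c, q (g c) ↔ q c := fun g hg c =>
        ⟨fun h => (rel P).trans' h ⟨g⁻¹, P.inv_mem hg, by simp⟩,
          fun h => (rel P).trans' h ⟨g, hg, rfl⟩⟩
      let r1 := restr P q hq
      let r2 := restr P (fun c => ¬ q c) (not_inv hq)
      have hd : Nat.card α = Nat.card {c // q c} + Nat.card {c // ¬ q c} := by
        rw [← Nat.card_sum, Nat.card_congr (Equiv.sumCompl q)]
      have h1pos : 0 < Nat.card {c // q c} :=
        Nat.card_pos_iff.2 ⟨⟨⟨a, (rel P).refl' a⟩⟩, inferInstance⟩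
      have h2pos : 0 < Nat.card {c // ¬ q c} := Nat.card_pos_iff.2 ⟨⟨⟨b, hab⟩⟩, inferInstance⟩
      have hc1 : Nat.card r1.range ≤ Nat.card P :=
        Nat.card_le_card_of_surjective r1.rangeRestrict r1.rangeRestrict_surjective
      have hc2 : Nat.card r2.range ≤ Nat.card P :=
        Nat.card_le_card_of_surjective r2.rangeRestrict r2.rangeRestrict_surjective
      obtain ⟨e1, ho1, hcard1, hs1⟩ :=
        ih r1.range (hP.of_surjective _ r1.rangeRestrict_surjective) (by omega)
      obtain ⟨e2, ho2, hcard2, hs2⟩ :=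
        ih r2.range (hP.of_surjective _ r2.rangeRestrict_surjective) (by omega)
      let F : P → r1.range × r2.range := fun x => (r1.rangeRestrict x, r2.rangeRestrict x)
      have hF : Function.Injective F := by
        intro x y hxy
        refine Subtype.ext (Equiv.ext fun c => ?_)
        by_cases hc : q c
        · have h := congrArg (fun z => ((z.1 : Perm {c // q c}) ⟨c, hc⟩).1) hxy
          simpa [F, r1, restr_apply] using h
        · have h := congrArg (fun z => ((z.2 : Perm {c // ¬ q c}) ⟨c, hc⟩).1) hxy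
          simpa [F, r2, restr_apply] using h
      have horb : orb P = orb r1.range + orb r2.range := orb_split P q hq
      refine ⟨e1 + e2, ?_, ?_, ?_⟩
      · rw [horb, hd, Nat.mul_add]; omega
      · calc Nat.card P ≤ Nat.card (r1.range × r2.range) := Nat.card_le_card_of_injective F hF
          _ = Nat.card r1.range * Nat.card r2.range := Nat.card_prod _ _
          _ ≤ p ^ e1 * p ^ e2 := Nat.mul_le_mul hcard1 hcard2
          _ = p ^ (e1 + e2) := (pow_add p e1 e2).symm
      · have hterm : ∀ x : P, A ^ orb (Subgroup.zpowers (x : Perm α)) =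
            A ^ orb (Subgroup.zpowers ((F x).1 : Perm {c // q c})) *
              A ^ orb (Subgroup.zpowers ((F x).2 : Perm {c // ¬ q c})) := by
          intro x
          rw [← pow_add, orb_split _ q (zpowers_inv hq x), range_restr_zpowers hq,
            range_restr_zpowers (not_inv hq)]
          rfl
        calc ∑ x : P, A ^ orb (Subgroup.zpowers (x : Perm α))
            = ∑ x : P, (fun z : r1.range × r2.range =>
                A ^ orb (Subgroup.zpowers (z.1 : Perm {c // q c})) *
                  A ^ orb (Subgroup.zpowers (z.2 : Perm {c // ¬ q c}))) (F x) :=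
              Finset.sum_congr rfl fun x _ => hterm x
          _ ≤ ∑ z : r1.range × r2.range, A ^ orb (Subgroup.zpowers (z.1 : Perm {c // q c})) *
                  A ^ orb (Subgroup.zpowers (z.2 : Perm {c // ¬ q c})) := by
              rw [← Finset.sum_image (f := fun z : r1.range × r2.range =>
                A ^ orb (Subgroup.zpowers (z.1 : Perm {c // q c})) *
                  A ^ orb (Subgroup.zpowers (z.2 : Perm {c // ¬ q c}))) hF.injOn]
              exact Finset.sum_le_sum_of_subset_of_nonneg (Finset.subset_univ _)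
                fun z _ _ => by positivity
          _ = (∑ y : r1.range, A ^ orb (Subgroup.zpowers (y : Perm {c // q c}))) *
                ∑ z : r2.range, A ^ orb (Subgroup.zpowers (z : Perm {c // ¬ q c})) := by
              rw [Finset.sum_mul_sum, Fintype.sum_prod_type]
          _ ≤ (A ^ orb r1.range * β ^ e1) * (A ^ orb r2.range * β ^ e2) :=
              mul_le_mul (le_of_eq_of_le (Finset.sum_congr (by ext; simp) fun _ _ => rfl) hs1)
                (le_of_eq_of_le (Finset.sum_congr (by ext; simp) fun _ _ => rfl) hs2) (Finset.sum_nonneg fun z _ => by positivity) (by positivity)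
          _ = A ^ orb P * β ^ (e1 + e2) := by rw [horb, pow_add, pow_add]; ring
    -- `P` is transitive
    rcases Nat.lt_or_ge (Nat.card α) 2 with hd | hd
    · haveI : Subsingleton α := Finite.card_le_one_iff_subsingleton.1 (by omega)
      refine ⟨0, ?_, ?_, ?_⟩
      · rw [Nat.mul_zero, Nat.add_zero, orb]
        exact Nat.card_congr (Equiv.ofBijective _
          ⟨fun a b _ => Subsingleton.elim a b, Quotient.mk''_surjective⟩).symm
      · rw [pow_zero]
        exact Finite.card_le_one_iff_subsingleton.2 inferInstance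
      · rw [pow_zero, mul_one, Fintype.sum_subsingleton _ (1 : P)]
        refine le_of_eq (congrArg _ ?_)
        exact (Nat.card_congr (Equiv.ofBijective _
          ⟨fun a b _ => Subsingleton.elim a b, Quotient.mk''_surjective⟩)).symm.trans
          (Nat.card_congr (Equiv.ofBijective _
          ⟨fun a b _ => Subsingleton.elim a b, Quotient.mk''_surjective⟩))
    haveI : Nonempty α := (Nat.card_pos_iff.1 (by omega)).1
    haveI : MulAction.IsPretransitive P α :=
      ⟨fun a b => by obtain ⟨g, hg, h⟩ := htr a b; exact ⟨⟨g, hg⟩, h⟩⟩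
    have horb : orb P = 1 := by
      haveI : Subsingleton (Quotient (rel P)) :=
        ⟨fun x y => Quotient.inductionOn₂ x y fun a b => Quotient.sound (htr a b)⟩
      exact Nat.card_of_subsingleton (⟦Classical.arbitrary α⟧)
    obtain ⟨a⟩ := ‹Nonempty α›
    set St := MulAction.stabilizer P a with hSt
    have hStidx : ∀ b : α, (MulAction.stabilizer P b).index = Nat.card α := fun b =>
      MulAction.index_stabilizer_of_transitive P b
    have hStne : St ≠ ⊤ := by
      intro h
      have := hStidx a
      rw [← hSt, h, Subgroup.index_top] at this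
      omega
    obtain ⟨N0, hN0, hle⟩ : ∃ N0 : Subgroup P, IsCoatom N0 ∧ St ≤ N0 :=
      (eq_top_or_exists_le_coatom St).resolve_left hStne
    haveI : Group.IsNilpotent P := hP.isNilpotent
    haveI hN0n : N0.Normal := Subgroup.NormalizerCondition.normal_of_coatom N0 Group.normalizerCondition_of_isNilpotent hN0
    have hidx : N0.index = p := by
      have hpg : IsPGroup p (P ⧸ N0) := hP.to_quotient N0
      obtain ⟨k, hk⟩ := IsPGroup.iff_card.1 hpg
      have hdvd : p ∣ Nat.card (P ⧸ N0) := by
        rw [hk]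
        refine dvd_pow_self p fun h0 => hN0.1 (Subgroup.index_eq_one.1 ?_)
        rw [Subgroup.index_eq_card, hk, h0, pow_zero]
      obtain ⟨z, hz⟩ := exists_prime_orderOf_dvd_card' p hdvd
      have hlt : N0 < (Subgroup.zpowers z).comap (QuotientGroup.mk' N0) := by
        refine lt_of_le_of_ne (QuotientGroup.le_comap_mk' _ _) fun h => ?_
        have hz1 : Subgroup.zpowers z = ⊥ := by
          rw [← Subgroup.map_comap_eq_self_of_surjective (QuotientGroup.mk'_surjective N0)
            (Subgroup.zpowers z), ← h, QuotientGroup.map_mk'_self]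
        rw [Subgroup.zpowers_eq_bot] at hz1
        rw [hz1, orderOf_one] at hz
        exact hp.out.ne_one hz.symm
      have htop : Subgroup.zpowers z = ⊤ :=
        Subgroup.comap_injective (QuotientGroup.mk'_surjective N0)
          ((hN0.2 _ hlt).trans (Subgroup.comap_top _).symm)
      rw [Subgroup.index_eq_card, ← Subgroup.card_top, ← htop, Nat.card_zpowers, hz]
    let N : Subgroup (Perm α) := N0.map P.subtype
    have hNP : N ≤ P := Subgroup.map_subtype_le _
    have hNcard : Nat.card N = Nat.card N0 :=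
      Subgroup.card_map_of_injective P.subtype_injective
    have hPN : Nat.card P = p * Nat.card N := by
      rw [hNcard, ← hidx, Subgroup.index_mul_card]
    obtain ⟨eN, hoN, hcardN, hsN⟩ := ih N (hP.to_le hNP) (by
      have := hp.out.two_le
      have := Nat.card_pos (α := N)
      nlinarith)
    -- the orbits of `N`
    let q := St.relIndex N0
    have hdq : Nat.card α = q * p := by
      rw [← hStidx a, ← hSt, ← hidx]
      exact (Subgroup.relIndex_mul_index hle).symm
    have hstab_le : ∀ b : α, MulAction.stabilizer P b ≤ N0 := by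
      intro b g hg
      obtain ⟨h, rfl⟩ := MulAction.exists_smul_eq P a b
      have hm : h⁻¹ * g * h ∈ St := by
        rw [hSt, MulAction.mem_stabilizer_iff, mul_smul, mul_smul,
          MulAction.mem_stabilizer_iff.1 hg, inv_smul_smul]
      simpa [mul_assoc] using hN0n.conj_mem _ (hle hm) h
    have hfib : ∀ b : α, Nat.card {c // rel N b c} = q := by
      intro b
      have h1 : Nat.card α = (MulAction.stabilizer P b).relIndex N0 * p := by
        rw [← hStidx b, ← hidx]
        exact (Subgroup.relIndex_mul_index (hstab_le b)).symm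
      have h2 : (MulAction.stabilizer P b).relIndex N0 = q :=
        Nat.eq_of_mul_eq_mul_right hp.out.pos (h1.symm.trans hdq)
      have h3 : (MulAction.stabilizer P b).subgroupOf N0 = MulAction.stabilizer N0 b := rfl
      have h4 : MulAction.orbit N0 b = {c | rel N b c} := by
        ext c
        constructor
        · rintro ⟨g, rfl⟩
          exact ⟨_, Subgroup.mem_map_of_mem _ g.2, rfl⟩
        · rintro ⟨_, ⟨g, hg, rfl⟩, rfl⟩
          exact ⟨⟨g, hg⟩, rfl⟩
      rw [← h2, Subgroup.relIndex, h3, MulAction.index_stabilizer, h4]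
      rfl
    have horbN : orb N = p := by
      have h : Nat.card α = orb N * q := by
        letI := Fintype.ofFinite (Quotient (rel N))
        rw [← Nat.card_congr (Equiv.sigmaFiberEquiv (Quotient.mk (rel N))), Nat.card_sigma,
          orb, Nat.card_eq_fintype_card, ← Finset.card_univ, Finset.card_eq_sum_ones,
          Finset.sum_mul]
        refine Finset.sum_congr rfl fun z _ => ?_
        induction z using Quotient.inductionOn with
        | h b =>
          rw [one_mul, ← hfib b]
          exact Nat.card_congr (Equiv.subtypeEquivRight fun c =>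
            ⟨fun h => Quotient.exact h.symm, fun h => (Quotient.sound h).symm⟩)
      refine Nat.eq_of_mul_eq_mul_right (m := q) ?_ (h.symm.trans (hdq.trans (mul_comm q p)))
      exact Nat.pos_of_ne_zero fun h0 => by rw [h0, zero_mul] at hdq; omega
    obtain ⟨k, hk⟩ : ∃ k, q = p ^ k := by
      obtain ⟨m, hm⟩ := (hP.to_subgroup N0).index (St.subgroupOf N0)
      exact ⟨m, hm⟩
    obtain ⟨e', he'⟩ : p - 1 ∣ q - 1 := by rw [hk]; exact Nat.sub_one_dvd_pow_sub_one p k
    have hp2 := hp.out.two_le
    have hq1 : 1 ≤ q := by rw [hk]; exact Nat.one_le_pow _ _ hp.out.pos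
    have heN : eN = p * e' := by
      refine Nat.eq_of_mul_eq_mul_left (show 0 < p - 1 by omega) ?_
      rw [horbN, hdq] at hoN
      have hq' : q = (p - 1) * e' + 1 := by omega
      rw [hq'] at hoN
      nlinarith
    refine ⟨eN + 1, ?_, ?_, ?_⟩
    · rw [horb, ← hoN, horbN, Nat.mul_add]; omega
    · rw [hPN, pow_succ']; exact Nat.mul_le_mul_left p hcardN
    -- elements outside `N`
    have hout : ∀ x : P, (x : Perm α) ∉ N → orb (Subgroup.zpowers (x : Perm α)) ≤ q := by
      intro x hx
      rw [← hfib a]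
      refine Nat.card_le_card_of_surjective
        (fun c : {c // rel N a c} => (⟦c.1⟧ : Quotient (rel (Subgroup.zpowers (x : Perm α))))) ?_
      intro z
      induction z using Quotient.inductionOn with
      | h b =>
        obtain ⟨g, rfl⟩ := MulAction.exists_smul_eq P a b
        have htop : Subgroup.zpowers x ⊔ N0 = ⊤ := by
          refine hN0.2 _ (lt_of_le_of_ne le_sup_right fun h => hx ?_)
          exact Subgroup.mem_map_of_mem P.subtype
            (h.symm ▸ Subgroup.mem_sup_left (Subgroup.mem_zpowers x) : x ∈ N0)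
        obtain ⟨y, hy, m, hm, rfl⟩ :=
          Subgroup.mem_sup_of_normal_right.1 (htop.symm ▸ Subgroup.mem_top g)
        refine ⟨⟨m • a, _, Subgroup.mem_map_of_mem _ hm, rfl⟩, Quotient.sound ⟨(y : Perm α), ?_, ?_⟩⟩
        · obtain ⟨i, rfl⟩ := Subgroup.mem_zpowers_iff.1 hy
          rw [Subgroup.coe_zpow]
          exact Subgroup.mem_zpowers_iff.2 ⟨i, rfl⟩
        · rw [mul_smul]; rfl
    have hfilt : ∑ x ∈ Finset.univ.filter (fun x : P => (x : Perm α) ∈ N),
        A ^ orb (Subgroup.zpowers (x : Perm α)) =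
          ∑ x : N, A ^ orb (Subgroup.zpowers (x : Perm α)) := by
      refine Finset.sum_bij' (fun x hx => (⟨x.1, (Finset.mem_filter.1 hx).2⟩ : N))
        (fun x _ => (⟨x.1, hNP x.2⟩ : P)) ?_ ?_ ?_ ?_ ?_ <;> simp
    have hcompl : (Finset.univ.filter (fun x : P => (x : Perm α) ∉ N)).card =
        (p - 1) * Nat.card N := by
      have h1 := Finset.card_filter_add_card_filter_not (s := (Finset.univ : Finset P))
        (fun x : P => (x : Perm α) ∈ N)
      have h2 : (Finset.univ.filter (fun x : P => (x : Perm α) ∈ N)).card = Nat.card N := by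
        rw [← Fintype.card_subtype, ← Nat.card_eq_fintype_card]
        exact Nat.card_congr
          { toFun := fun x => ⟨x.1.1, x.2⟩, invFun := fun x => ⟨⟨x.1, hNP x.2⟩, x.2⟩,
            left_inv := fun x => rfl, right_inv := fun x => rfl }
      rw [Finset.card_univ, ← Nat.card_eq_fintype_card, hPN, h2] at h1
      rw [Nat.sub_mul, one_mul]
      omega
    have hkey : (p : ℝ) ^ eN * A ^ (q - 1) ≤ β ^ eN := by
      rw [heN, he', pow_mul, pow_mul, pow_mul, ← mul_pow]
      exact pow_le_pow_left₀ (by positivity) (amgm p hp.out.one_le (one_le_pow₀ hA)) _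
    have hcN : (Nat.card N : ℝ) ≤ (p : ℝ) ^ eN := by exact_mod_cast hcardN
    calc ∑ x : P, A ^ orb (Subgroup.zpowers (x : Perm α))
        = ∑ x ∈ Finset.univ.filter (fun x : P => (x : Perm α) ∈ N),
            A ^ orb (Subgroup.zpowers (x : Perm α)) +
          ∑ x ∈ Finset.univ.filter (fun x : P => (x : Perm α) ∉ N),
            A ^ orb (Subgroup.zpowers (x : Perm α)) :=
          (Finset.sum_filter_add_sum_filter_not _ _ _).symm
      _ ≤ A ^ p * β ^ eN + ((p - 1 : ℕ) * (Nat.card N : ℝ)) * A ^ q := by
          refine add_le_add ?_ ?_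
          · rw [hfilt, ← horbN]; exact hsN
          · refine (Finset.sum_le_card_nsmul _ _ (A ^ q) fun x hx =>
              pow_le_pow_right₀ hA (hout x (Finset.mem_filter.1 hx).2)).trans (le_of_eq ?_)
            rw [hcompl, nsmul_eq_mul]
            push_cast
            ring
      _ ≤ A ^ p * β ^ eN + ((p - 1 : ℕ) * (p : ℝ) ^ eN) * A ^ q := by gcongr
      _ = A ^ p * β ^ eN + (p - 1 : ℕ) * ((p : ℝ) ^ eN * A ^ (q - 1)) * A := by
          rw [show A ^ q = A ^ (q - 1) * A by rw [← pow_succ, Nat.sub_add_cancel hq1]]; ring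
      _ ≤ A ^ p * β ^ eN + (p - 1 : ℕ) * β ^ eN * A := by gcongr
      _ = A ^ orb P * β ^ (eN + 1) := by
          rw [horb, pow_one, pow_succ β eN, hβ,
            show A ^ p = A * A ^ (p - 1) by rw [← pow_succ', Nat.sub_add_cancel hp.out.one_le]]
          ring

/-- Permutations commuting with `x` act on the cycles of `x`. -/
def cyclePerm {G : Subgroup (Perm α)} (x : G) :
    Subgroup.centralizer ({x} : Set G) →* Perm (Quotient (rel (Subgroup.zpowers (x : Perm α)))) :=
  have h : ∀ y : Subgroup.centralizer ({x} : Set G), ∀ a b : α,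
      rel (Subgroup.zpowers (x : Perm α)) a b →
        rel (Subgroup.zpowers (x : Perm α)) ((y.1 : Perm α) a) ((y.1 : Perm α) b) := by
    rintro y a b ⟨g, hg, rfl⟩
    have hc : Commute ((x : Perm α)) (y.1 : Perm α) :=
      (congrArg Subtype.val (Subgroup.mem_centralizer_singleton_iff.1 y.2)).symm
    obtain ⟨i, rfl⟩ := Subgroup.mem_zpowers_iff.1 hg
    refine ⟨_, hg, ?_⟩
    rw [← Perm.mul_apply, ← Perm.mul_apply, (hc.zpow_left i).eq]
  { toFun := fun y =>
      { toFun := Quotient.map (fun a => (y.1 : Perm α) a) (h y)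
        invFun := Quotient.map (fun a => ((y⁻¹).1 : Perm α) a) (h y⁻¹)
        left_inv := fun z => Quotient.inductionOn z fun a => by simp
        right_inv := fun z => Quotient.inductionOn z fun a => by simp }
    map_one' := Equiv.ext fun z => Quotient.inductionOn z fun a => rfl
    map_mul' := fun y y' => Equiv.ext fun z => Quotient.inductionOn z fun a => rfl }

theorem ker_cyclePerm_mem {G : Subgroup (Perm α)} {x : G}
    {y : Subgroup.centralizer ({x} : Set G)} (hy : cyclePerm x y = 1) (a : α) :
    ∃ i : ℤ, ((x : Perm α) ^ i) a = (y.1 : Perm α) a := by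
  have h := Equiv.congr_fun hy ⟦a⟧
  obtain ⟨g, hg, hga⟩ := Quotient.exact h.symm
  obtain ⟨i, rfl⟩ := Subgroup.mem_zpowers_iff.1 hg
  exact ⟨i, hga⟩

theorem comm_of_mem_ker {G : Subgroup (Perm α)} {x : G}
    {y z : Subgroup.centralizer ({x} : Set G)} (hy : cyclePerm x y = 1)
    (hz : cyclePerm x z = 1) : y * z = z * y := by
  have hcx : ∀ w : Subgroup.centralizer ({x} : Set G), Commute ((x : Perm α)) (w.1 : Perm α) :=
    fun w => (congrArg Subtype.val (Subgroup.mem_centralizer_singleton_iff.1 w.2)).symm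
  refine Subtype.ext (Subtype.ext (Equiv.ext fun a => ?_))
  obtain ⟨i, hi⟩ := ker_cyclePerm_mem hy a
  obtain ⟨j, hj⟩ := ker_cyclePerm_mem hz a
  show (y.1 : Perm α) ((z.1 : Perm α) a) = (z.1 : Perm α) ((y.1 : Perm α) a)
  rw [← hj, ← hi, ← Perm.mul_apply, ← Perm.mul_apply (z.1 : Perm α),
    ← ((hcx y).zpow_left j).eq, ← ((hcx z).zpow_left i).eq, Perm.mul_apply, Perm.mul_apply, ← hi,
    ← hj, ← Perm.mul_apply, ← Perm.mul_apply, ← zpow_add, ← zpow_add, add_comm]

theorem pow_orderOf_of_mem_ker {G : Subgroup (Perm α)} {x : G}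
    {y : Subgroup.centralizer ({x} : Set G)} (hy : cyclePerm x y = 1) : y ^ orderOf x = 1 := by
  have hc : Commute ((x : Perm α)) (y.1 : Perm α) :=
    (congrArg Subtype.val (Subgroup.mem_centralizer_singleton_iff.1 y.2)).symm
  refine Subtype.ext (Subtype.ext (Equiv.ext fun a => ?_))
  obtain ⟨i, hi⟩ := ker_cyclePerm_mem hy a
  have key : ∀ m : ℕ, ((y.1 : Perm α) ^ m) a = ((x : Perm α) ^ (i * m)) a := by
    intro m
    induction m with
    | zero => simp
    | succ m ih =>
      rw [pow_succ', Perm.mul_apply, ih, ← Perm.mul_apply, ← (hc.zpow_left _).eq, Perm.mul_apply,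
        ← hi, ← Perm.mul_apply, ← zpow_add]
      push_cast
      ring_nf
  show ((y.1 : Perm α) ^ orderOf x) a = a
  rw [key, mul_comm, zpow_mul, zpow_natCast, ← Subgroup.orderOf_coe, pow_orderOf_eq_one, one_zpow]
  rfl

/-- The classes of elements without prime divisors below `n`. -/
noncomputable def cnt (n : ℕ) (G : Type u) [Group G] : ℕ :=
  Nat.card {c : ConjClasses G //
    ∃ g, ConjClasses.mk g = c ∧ ∀ r, r.Prime → r < n → ¬ r ∣ orderOf g}

/-- The decreasing sequence of bases. -/
noncomputable def base (n : ℕ) : ℝ := 2 + 8 * (1 / 2) ^ n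

theorem two_le_base (n : ℕ) : 2 ≤ base n := by
  have : (0 : ℝ) ≤ 8 * (1 / 2) ^ n := by positivity
  unfold base; linarith

theorem base_step {p : ℕ} (hp : 2 ≤ p) :
    base (p + 1) ^ (p - 1) + ((p - 1 : ℕ) : ℝ) ≤ base p ^ (p - 1) := by
  set A := base (p + 1) with hA
  set δ : ℝ := 4 * (1 / 2) ^ p with hδ
  have hB : base p = A + δ := by rw [hA, hδ, base, base, pow_succ]; ring
  have hA2 : 2 ≤ A := two_le_base _
  have hA0 : 0 < A := by linarith
  have hδ0 : 0 ≤ δ := by positivity
  obtain ⟨m, rfl⟩ : ∃ m, p = m + 2 := ⟨p - 2, by omega⟩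
  simp only [show m + 2 - 1 = m + 1 from rfl]
  have h := one_add_mul_le_pow (a := δ / A) (by
    have := div_nonneg hδ0 hA0.le; linarith) (m + 1)
  have hunit : 1 ≤ A ^ m * δ := by
    rw [hδ, pow_add, show (4 : ℝ) * ((1 / 2) ^ m * (1 / 2) ^ 2) = (1 / 2) ^ m by ring,
      ← mul_pow]
    exact one_le_pow₀ (by linarith)
  calc A ^ (m + 1) + ((m + 1 : ℕ) : ℝ) ≤ A ^ (m + 1) + ((m + 1 : ℕ) : ℝ) * (A ^ m * δ) :=
        add_le_add le_rfl (le_mul_of_one_le_right (by positivity) hunit)
    _ = A ^ (m + 1) * (1 + ((m + 1 : ℕ) : ℝ) * (δ / A)) := by field_simp; ring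
    _ ≤ A ^ (m + 1) * (1 + δ / A) ^ (m + 1) := mul_le_mul_of_nonneg_left h (by positivity)
    _ = base (m + 2) ^ (m + 1) := by rw [← mul_pow, hB]; congr 1; field_simp

theorem cnt_le : ∀ (k : ℕ) {α : Type u} [Fintype α] (G : Subgroup (Perm α)) (n : ℕ),
    Nat.card α + 1 ≤ n + k → (cnt n G : ℝ) ≤ base n ^ Nat.card α := by
  intro k
  induction k with
  | zero =>
    intro α _ G n hn
    have h1 : cnt n G ≤ 1 := by
      haveI : Subsingleton {c : ConjClasses G //
          ∃ g, ConjClasses.mk g = c ∧ ∀ r, r.Prime → r < n → ¬ r ∣ orderOf g} := by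
        refine ⟨fun ⟨c, g, hgc, hg⟩ ⟨c', g', hgc', hg'⟩ => Subtype.ext ?_⟩
        have hone : ∀ y : G, (∀ r, r.Prime → r < n → ¬ r ∣ orderOf y) → y = 1 := by
          intro y hy
          by_contra hne
          obtain ⟨r, hr, hrd⟩ := Nat.exists_prime_and_dvd
            (fun h => hne (orderOf_eq_one_iff.1 h) : orderOf y ≠ 1)
          have h' : r ∣ (Nat.card α).factorial := by
            rw [← Nat.card_perm]
            exact hrd.trans ((orderOf_dvd_natCard y).trans (Subgroup.card_subgroup_dvd_card G))
          exact hy r hr (by have := hr.dvd_factorial.1 h'; omega) hrd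
        show c = c'
        rw [← hgc, ← hgc', hone g hg, hone g' hg']
      exact Finite.card_le_one_iff_subsingleton.2 this
    calc (cnt n G : ℝ) ≤ 1 := by exact_mod_cast h1
      _ ≤ base n ^ Nat.card α := one_le_pow₀ (by have := two_le_base n; linarith)
  | succ k ih =>
    intro α _ G n hn
    by_cases hp : n.Prime
    swap
    · have he : cnt n G = cnt (n + 1) G := by
        refine Nat.card_congr (Equiv.subtypeEquivRight fun c => exists_congr fun g =>
          and_congr_right fun _ => forall_congr' fun r => forall_congr' fun hr => ?_)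
        refine ⟨fun h hlt => h ?_, fun h hlt => h (by omega)⟩
        rcases Nat.lt_succ_iff_lt_or_eq.1 hlt with h' | h'
        · exact h'
        · exact absurd (h' ▸ hr) hp
      rw [he]
      refine (ih G (n + 1) (by omega)).trans (pow_le_pow_left₀
        (by have := two_le_base (n + 1); linarith) ?_ _)
      have : (1 / 2 : ℝ) ^ (n + 1) ≤ (1 / 2) ^ n :=
        pow_le_pow_of_le_one (by norm_num) (by norm_num) (Nat.le_succ n)
      unfold base; linarith
    haveI : Fact n.Prime := ⟨hp⟩
    obtain ⟨P⟩ := (inferInstance : Nonempty (Sylow n G))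
    -- classes through their `p`-parts
    have hrep : ∀ c : {c : ConjClasses G //
        ∃ g, ConjClasses.mk g = c ∧ ∀ r, r.Prime → r < n → ¬ r ∣ orderOf g},
        ∃ x : (P : Subgroup G), ∃ h : Subgroup.centralizer ({(x : G)} : Set G),
          ConjClasses.mk ((x : G) * (h : G)) = c.1 ∧
            ∀ r, r.Prime → r < n + 1 → ¬ r ∣ orderOf h := by
      rintro ⟨c, g, rfl, hg⟩
      obtain ⟨a, b, hab, ⟨i, hi⟩, hb⟩ :=
        CfsgLib.NormalPComplement.exists_pParts (p := n) (isOfFinOrder_of_finite g)
      obtain ⟨j, -, hj⟩ := (Nat.dvd_prime_pow hp).1 hi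
      obtain ⟨Q, hQ⟩ := (IsPGroup.of_card (p := n) (n := j)
        (show Nat.card (Subgroup.zpowers (g ^ a)) = n ^ j by rw [Nat.card_zpowers, hj]))
        |>.exists_le_sylow
      obtain ⟨t, rfl⟩ := MulAction.exists_smul_eq G P Q
      have hmem : t⁻¹ * g ^ a * t ∈ (P : Subgroup G) := by
        have := hQ (Subgroup.mem_zpowers _)
        rw [Sylow.coe_subgroup_smul, Subgroup.mem_pointwise_smul_iff_inv_smul_mem] at this
        rwa [MulAut.smul_def, ← map_inv, MulAut.conj_apply, inv_inv] at this
      have hcent : t⁻¹ * g ^ b * t ∈ Subgroup.centralizer ({t⁻¹ * g ^ a * t} : Set G) := by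
        rw [Subgroup.mem_centralizer_singleton_iff]
        calc t⁻¹ * g ^ b * t * (t⁻¹ * g ^ a * t) = t⁻¹ * (g ^ b * g ^ a) * t := by group
          _ = t⁻¹ * (g ^ a * g ^ b) * t := by rw [(Commute.pow_pow_self g b a).eq]
          _ = _ := by group
      refine ⟨⟨_, hmem⟩, ⟨_, hcent⟩, ?_, fun r hr hlt => ?_⟩
      · refine ConjClasses.mk_eq_mk_iff_isConj.2 (isConj_iff.2 ⟨t, ?_⟩)
        conv_rhs => rw [← hab]
        show t * (t⁻¹ * g ^ a * t * (t⁻¹ * g ^ b * t)) * t⁻¹ = g ^ a * g ^ b
        group
      · rw [← Subgroup.orderOf_coe]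
        show ¬ r ∣ orderOf (t⁻¹ * g ^ b * t)
        rw [show t⁻¹ * g ^ b * t = MulAut.conj t⁻¹ (g ^ b) by simp [MulAut.conj_apply],
          MulEquiv.orderOf_eq]
        intro hd
        rcases Nat.lt_succ_iff_lt_or_eq.1 hlt with h' | h'
        · exact hg r hr h' (hd.trans (orderOf_pow_dvd b))
        · subst h'
          exact (Nat.Prime.coprime_iff_not_dvd hr).1 hb.symm hd
    choose fx fh hmk hord using hrep
    let T : ↥(P : Subgroup G) → Type u := fun x =>
      {c : ConjClasses (cyclePerm (x : G)).range //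
        ∃ g, ConjClasses.mk g = c ∧ ∀ r, r.Prime → r < n + 1 → ¬ r ∣ orderOf g}
    let F : {c : ConjClasses G //
        ∃ g, ConjClasses.mk g = c ∧ ∀ r, r.Prime → r < n → ¬ r ∣ orderOf g} → Σ x : ↥(P : Subgroup G), T x :=
      fun c => ⟨fx c, ⟨ConjClasses.mk ((cyclePerm (fx c : G)).rangeRestrict (fh c)), _, rfl,
        fun r hr hlt hd => hord c r hr hlt (hd.trans (orderOf_map_dvd _ _))⟩⟩
    have hinj : ∀ (x : ↥(P : Subgroup G)) (h h' : Subgroup.centralizer ({(x : G)} : Set G)),
        (orderOf h).Coprime n → (orderOf h').Coprime n →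
        IsConj ((cyclePerm (x : G)).rangeRestrict h) ((cyclePerm (x : G)).rangeRestrict h') →
        ConjClasses.mk ((x : G) * (h : G)) = ConjClasses.mk ((x : G) * (h' : G)) := by
      intro x h h' ho ho' hc
      obtain ⟨⟨_, z, rfl⟩, hz⟩ := isConj_iff.1 hc
      set h1 := z * h * z⁻¹ with hh1
      have hρ : cyclePerm (x : G) h1 = cyclePerm (x : G) h' := by
        rw [hh1, map_mul, map_mul, map_inv]
        exact congrArg Subtype.val hz
      let K := (cyclePerm (x : G)).ker
      have hKp : IsPGroup n K := by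
        intro y
        obtain ⟨j, hj⟩ := P.isPGroup' x
        refine ⟨j, Subtype.ext ?_⟩
        have hox : orderOf (x : G) ∣ n ^ j :=
          orderOf_dvd_of_pow_eq_one (congrArg Subtype.val hj)
        obtain ⟨c, hc⟩ := hox
        rw [Subgroup.coe_pow, Subgroup.coe_one, hc, pow_mul, pow_orderOf_of_mem_ker y.2, one_pow]
      haveI : Group.IsSolvable K := by
        letI : CommGroup K :=
          { (inferInstance : Group K) with
            mul_comm := fun a b => Subtype.ext (comm_of_mem_ker a.2 b.2) }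
        infer_instance
      have hcop : ∀ y : Subgroup.centralizer ({(x : G)} : Set G), (orderOf y).Coprime n →
          (Nat.card (Subgroup.zpowers y)).Coprime (Nat.card K) := by
        intro y hy
        obtain ⟨j, hj⟩ := IsPGroup.iff_card.1 hKp
        rw [Nat.card_zpowers, hj]
        exact hy.pow_right j
      have ho1 : (orderOf h1).Coprime n := by
        rwa [hh1, show z * h * z⁻¹ = MulAut.conj z h from rfl, MulEquiv.orderOf_eq]
      have hBle : Subgroup.zpowers h1 ≤ K ⊔ Subgroup.zpowers h' := by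
        refine Subgroup.zpowers_le.2 ?_
        rw [← inv_mul_cancel_right h1 h']
        refine Subgroup.mul_mem_sup ?_ (Subgroup.mem_zpowers h')
        rw [MonoidHom.mem_ker, map_mul, map_inv, hρ, mul_inv_cancel]
      obtain ⟨y, hy, hyle⟩ := CfsgLib.CoprimeAction.exists_le_conj_of_coprime (N := K)
        (H := Subgroup.zpowers h') (by rw [Subgroup.normalizer_eq_top K]; exact le_top) hBle
        (hcop h1 ho1) (Or.inr inferInstance)
      have hm := hyle (Subgroup.mem_zpowers h1)
      rw [Subgroup.mem_pointwise_smul_iff_inv_smul_mem, MulAut.smul_def, ← map_inv,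
        MulAut.conj_apply, inv_inv] at hm
      have heq : y⁻¹ * h1 * y = h' := by
        have hd := mul_mem hm (inv_mem (Subgroup.mem_zpowers h'))
        have hk : y⁻¹ * h1 * y * h'⁻¹ ∈ K := by
          rw [MonoidHom.mem_ker, map_mul, map_mul, map_mul, map_inv, map_inv,
            MonoidHom.mem_ker.1 hy, inv_one, one_mul, mul_one, hρ, mul_inv_cancel]
        have hbot : Subgroup.zpowers h' ⊓ K = ⊥ :=
          (Subgroup.inf_eq_bot_of_coprime (hcop h' ho'))
        have h0 : y⁻¹ * h1 * y * h'⁻¹ ∈ Subgroup.zpowers h' ⊓ K := ⟨hd, hk⟩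
        rw [hbot, Subgroup.mem_bot] at h0
        exact mul_inv_eq_one.1 h0
      refine ConjClasses.mk_eq_mk_iff_isConj.2 (isConj_iff.2 ⟨((y⁻¹ * z : _) : G), ?_⟩)
      have hcx : ((y⁻¹ * z : Subgroup.centralizer ({(x : G)} : Set G)) : G) * (x : G) =
          (x : G) * ((y⁻¹ * z : Subgroup.centralizer ({(x : G)} : Set G)) : G) :=
        Subgroup.mem_centralizer_singleton_iff.1 (y⁻¹ * z).2
      rw [← heq, ← mul_assoc ((y⁻¹ * z : _) : G), hcx, hh1]
      push_cast
      group
    have hFinj : Function.Injective F := by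
      rintro c c' hcc
      apply Subtype.ext
      rw [← hmk c, ← hmk c']
      have hcp : ∀ d, (orderOf (fh d)).Coprime n := fun d =>
        ((Nat.Prime.coprime_iff_not_dvd hp).2 (hord d n hp (Nat.lt_succ_self n))).symm
      have hx : fx c = fx c' := congrArg Sigma.fst hcc
      revert hcc
      have gen : ∀ (x x' : ↥(P : Subgroup G)) (h : Subgroup.centralizer ({(x : G)} : Set G))
          (h' : Subgroup.centralizer ({(x' : G)} : Set G)), x = x' →
          (orderOf h).Coprime n → (orderOf h').Coprime n → ∀ (t : T x) (t' : T x'),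
          t.1 = ConjClasses.mk ((cyclePerm (x : G)).rangeRestrict h) →
          t'.1 = ConjClasses.mk ((cyclePerm (x' : G)).rangeRestrict h') →
          (⟨x, t⟩ : Σ x : ↥(P : Subgroup G), T x) = ⟨x', t'⟩ →
          ConjClasses.mk ((x : G) * (h : G)) = ConjClasses.mk ((x' : G) * (h' : G)) := by
        intro x x' h h' hxx ho ho' t t' ht ht' he
        subst hxx
        obtain ⟨-, he⟩ := Sigma.mk.inj_iff.1 he
        refine hinj x h h' ho ho' (ConjClasses.mk_eq_mk_iff_isConj.1 ?_)
        rw [← ht, ← ht', eq_of_heq he]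
      exact fun hcc => gen _ _ _ _ hx (hcp c) (hcp c') _ _ rfl rfl hcc
    letI := fun x => Fintype.ofFinite (T x)
    have hcount : cnt n G ≤ ∑ x : (P : Subgroup G), cnt (n + 1) (cyclePerm (x : G)).range :=
      (Nat.card_le_card_of_injective F hFinj).trans (le_of_eq Nat.card_sigma)
    -- pass to the image of `P` in `Perm α`
    let P' : Subgroup (Perm α) := (P : Subgroup G).map G.subtype
    obtain ⟨e, he, -, hs⟩ := sum_pow_orb_le (p := n) (A := base (n + 1))
      (by have := two_le_base (n + 1); linarith) _ P' (P.isPGroup'.map _) le_rfl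
    have hB0 : 0 ≤ base n := by have := two_le_base n; linarith
    have hAB : base (n + 1) ≤ base n := by
      have : (1 / 2 : ℝ) ^ (n + 1) ≤ (1 / 2) ^ n :=
        pow_le_pow_of_le_one (by norm_num) (by norm_num) (Nat.le_succ n)
      unfold base; linarith
    calc (cnt n G : ℝ)
        ≤ ∑ x : (P : Subgroup G), (cnt (n + 1) (cyclePerm (x : G)).range : ℝ) := by
          exact_mod_cast hcount
      _ ≤ ∑ x : (P : Subgroup G),
            base (n + 1) ^ orb (Subgroup.zpowers ((x : G) : Perm α)) := by
          refine Finset.sum_le_sum fun x _ => ?_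
          letI := Fintype.ofFinite (Quotient (rel (Subgroup.zpowers ((x : G) : Perm α))))
          refine ih _ (n + 1) ?_
          have := Nat.card_le_card_of_surjective
            (Quotient.mk (rel (Subgroup.zpowers ((x : G) : Perm α)))) Quotient.mk_surjective
          omega
      _ = ∑ x : P', base (n + 1) ^ orb (Subgroup.zpowers (x : Perm α)) :=
          Fintype.sum_equiv (Subgroup.equivMapOfInjective _ _ G.subtype_injective).toEquiv _ _
            fun x => rfl
      _ ≤ _ := hs
      _ ≤ base n ^ orb P' * (base n ^ (n - 1)) ^ e := by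
          have := two_le_base (n + 1)
          exact mul_le_mul (pow_le_pow_left₀ (by linarith) hAB _)
            (pow_le_pow_left₀ (by positivity) (base_step hp.two_le) _) (by positivity)
            (by positivity)
      _ = base n ^ Nat.card α := by rw [← pow_mul, ← pow_add, he]

/-- A group of permutations of `d` points has at most `4 ^ d` conjugacy classes. -/
theorem card_conjClasses_le_four_pow [Fintype α] (G : Subgroup (Perm α)) :
    Nat.card (ConjClasses G) ≤ 4 ^ Nat.card α := by
  have h := cnt_le (Nat.card α + 1) G 2 (by omega)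
  have hall : cnt 2 G = Nat.card (ConjClasses G) := by
    refine Nat.card_congr (Equiv.subtypeUnivEquiv fun c => ?_)
    obtain ⟨g, rfl⟩ := ConjClasses.mk_surjective c
    exact ⟨g, rfl, fun r hr hlt => absurd hr.two_le (by omega)⟩
  rw [hall, show base 2 = 4 by norm_num [base]] at h
  exact_mod_cast h

end CfsgLib.PermClassBound
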